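import Mathlib
import Cfsg.Prelude.Def_LieExceptional

/-!
Statements of the pieces of S4068 (a finite non-solvable group with exactly four automorphism
orbits is the alternating group of degree 5), as `Prop`-valued definitions (helper12).  Each piece
`X` is proved in a file `Cfsg/Agent/Lib/<Seat>/AO<PIECE>.lean` as `theorem main : AOStmt.X.{u}`
(or `AOStmt.X` when it has no universe parameter).
-/

set_option autoImplicit false
set_option linter.unusedVariables false

universe u

namespace Cfsg.Agent.Lib.Helper12.AOStmt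

/-- Every nonidentity element has prime order. -/
def EPO (G : Type*) [Group G] : Prop := ∀ x : G, x ≠ 1 → (orderOf x).Prime

/-- ORB1.  `orderOf` is constant on orbits (`MulAut.smul_def`, `MulEquiv.orderOf_eq`), so it
descends to `ord : Quotient → ℕ`.  Its image contains `1` (class of `1`) and every prime
divisor of `|G|` (Cauchy: `exists_prime_orderOf_dvd_card'`), i.e. the finset
`insert 1 (Nat.card G).primeFactors` of cardinality `card + 1`. -/
def Orb1 : Prop := ∀ {G : Type u} [Group G] [Finite G],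
    (Nat.card G).primeFactors.card + 1 ≤ Nat.card (MulAction.orbitRel.Quotient (MulAut G) G)

/-- ORB2.  As in ORB1 the image of `ord : Quotient → ℕ` contains
`insert 1 (Nat.card G).primeFactors`; by the cardinality hypothesis it is equal to it.  So the
order of any `x` is `1` or a prime. -/
def Orb2 : Prop := ∀ {G : Type u} [Group G] [Finite G]
    (h : (Nat.card G).primeFactors.card + 1 =
      Nat.card (MulAction.orbitRel.Quotient (MulAut G) G)), EPO G

/-- ARI2 (no universe parameter).  At most two prime divisors: `n = p ^ a * q ^ b`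
(`Nat.factorization_prod_pow_eq_self`; cases `card = 0, 1, 2`; for `card ≤ 1` take any prime for
the missing ones with exponent `0`). -/
def Ari2 : Prop := ∀ (n : ℕ) (hn : n ≠ 0) (h : n.primeFactors.card ≤ 2),
    ∃ p q a b : ℕ, p.Prime ∧ q.Prime ∧ n = p ^ a * q ^ b

/-- SOLV2 (statement proved by SOLV2GLUE). -/
def Solv2 : Prop := ∀ {G : Type u} [Group G] [Finite G]
    (h : (Nat.card G).primeFactors.card ≤ 2), Group.IsSolvable G

/-- SOLV2GLUE.  `Ari2` and the landed `Cfsg.Agent.S0144.result p q a b hp hq hcard` (Burnside). -/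
def Solv2Glue : Prop := Ari2 → Solv2.{u}

/-- CENT.  `p = orderOf x`, `q = orderOf y` primes; if `p ≠ q` then `x * y ≠ 1` has order `p * q`
(`Commute.orderOf_mul_eq_mul_orderOf_of_coprime`), not a prime. -/
def Cent : Prop := ∀ {G : Type u} [Group G] [Finite G] (hE : EPO G) (x : G) (hx : x ≠ 1) (y : G)
    (hy : y ∈ Subgroup.centralizer ({x} : Set G)) (hy1 : y ≠ 1), orderOf y = orderOf x

/-- CN.  The centralizer of `g ≠ 1` is a `p`-group for `p = orderOf g` (every element has
`y ^ p = 1`), hence nilpotent (`IsPGroup.isNilpotent`). -/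
def CN : Prop := ∀ {G : Type u} [Group G] [Finite G] (hE : EPO G)
    (hcent : ∀ x : G, x ≠ 1 → ∀ y ∈ Subgroup.centralizer ({x} : Set G), y ≠ 1 →
      orderOf y = orderOf x), Cfsg.IsCNGroup G

/-- INV.  Every `c` in the centralizer of `t` is `1` or of order 2, so `c ^ 2 = 1`; exponent two
gives commutative. -/
def Inv : Prop := ∀ {G : Type u} [Group G] [Finite G]
    (hcent : ∀ x : G, x ≠ 1 → ∀ y ∈ Subgroup.centralizer ({x} : Set G), y ≠ 1 →
      orderOf y = orderOf x) (t : G) (ht : orderOf t = 2),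
    IsMulCommutative (Subgroup.centralizer ({t} : Set G)) ∧
      ∀ c ∈ Subgroup.centralizer ({t} : Set G), c ^ 2 = 1

/-- TNN.  If `T` is normal: `|G ⧸ T| = index T` is odd and divides `|G|`, so it has at most two
prime divisors: `G ⧸ T` solvable by `Solv2`; `T` is a 2-group, nilpotent, solvable;
`solvable_of_ker_le_range`. -/
def TNN : Prop := Solv2.{u} → ∀ {G : Type u} [Group G] [Finite G] (hns : ¬ Group.IsSolvable G)
    (h3 : (Nat.card G).primeFactors.card = 3) (T : Sylow 2 G) (h2 : 2 ∣ Nat.card G),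
    ¬ (T : Subgroup G).Normal

/-- IDX2.  `T = {1, t}`, so `normalizer T ≤ centralizer T`; Mathlib's
`MonoidHom.ker_transferSylow_isComplement'`. -/
def Idx2 : Prop := ∀ {G : Type u} [Group G] [Finite G] (T : Sylow 2 G)
    (hT : Nat.card (T : Subgroup G) = 2),
    ∃ K : Subgroup G, K.Normal ∧ K.IsComplement' (T : Subgroup G)

/-- TNC.  If `T` is cyclic, a generator has order `1` or a prime, and `|T|` is a power of 2,
`≠ 1` as `2 ∣ |G|`: `|T| = 2`.  `Idx2`: normal complement `K`, `|K| = index T` odd, at most two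
prime divisors: `K` solvable (`Solv2`); `G ⧸ K` has order 2: solvable (`Solv2`);
`solvable_of_ker_le_range`. -/
def TNC : Prop := Solv2.{u} → Idx2.{u} → ∀ {G : Type u} [Group G] [Finite G]
    (hns : ¬ Group.IsSolvable G) (hE : EPO G) (h3 : (Nat.card G).primeFactors.card = 3)
    (T : Sylow 2 G) (h2 : 2 ∣ Nat.card G), ¬ IsCyclic (T : Subgroup G)

/-- TOPSL.  `T := default`; landed `Cfsg.Agent.S1230.result T (hnc T) (hnn T) hinv` gives `F` with
`Fintype.card F = Nat.card T` and the isomorphism.  `Nat.card T = 2 ^ k` (`IsPGroup.iff_card`);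
`k = 0` or `k = 1` would make `T` cyclic (`isCyclic_of_prime_card`). -/
def ToPSL : Prop := ∀ {G : Type u} [Group G] [Finite G]
    (hnn : ∀ T : Sylow 2 G, ¬ (T : Subgroup G).Normal)
    (hnc : ∀ T : Sylow 2 G, ¬ IsCyclic (T : Subgroup G))
    (hinv : ∀ t : G, orderOf t = 2 → IsMulCommutative (Subgroup.centralizer ({t} : Set G)) ∧
      ∀ c ∈ Subgroup.centralizer ({t} : Set G), c ^ 2 = 1),
    ∃ (F : Type) (_ : Field F) (_ : Fintype F) (f : ℕ), 2 ≤ f ∧ Fintype.card F = 2 ^ f ∧
      Nonempty (G ≃* Matrix.ProjectiveSpecialLinearGroup (Fin 2) F)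

/-- CARD (no universe parameter).  Landed `Cfsg.Agent.Lib.Helper5.SL2Card.card_PSL_two hF :
Nat.card (PSL₂ F) * Nat.gcd 2 (q - 1) = q * (q ^ 2 - 1)` with `q = 2 ^ f`: the gcd is 1 and
`q ^ 2 - 1 = (q - 1) * (q + 1)`. -/
def CardPSL : Prop := ∀ (F : Type) [Field F] [Fintype F] (f : ℕ) (hf : 1 ≤ f)
    (hF : Fintype.card F = 2 ^ f),
    Nat.card (Matrix.ProjectiveSpecialLinearGroup (Fin 2) F) = 2 ^ f * (2 ^ f - 1) * (2 ^ f + 1)

/-- ARIQ1 (no universe parameter).  `2 ^ f`, `2 ^ f - 1`, `2 ^ f + 1` are pairwise coprime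
(`Nat.Coprime.primeFactors_mul`, `Nat.Coprime.disjoint_primeFactors`), the first has the one
prime factor 2, the others are `> 1`, so each has exactly one prime factor
(`isPrimePow_iff_card_primeFactors_eq_one`). -/
def AriQ1 : Prop := ∀ (f : ℕ) (hf : 2 ≤ f)
    (h : (2 ^ f * (2 ^ f - 1) * (2 ^ f + 1)).primeFactors.card = 3),
    IsPrimePow (2 ^ f - 1) ∧ IsPrimePow (2 ^ f + 1)

/-- ARIQ2 (no universe parameter).  `f` even, `f = 2 * m`: `3 ∣ 2 ^ f - 1`, so `2 ^ f - 1 = 3 ^ a
= (2 ^ m - 1) * (2 ^ m + 1)` with coprime factors, so `2 ^ m - 1 = 1`, `f = 2`.  `f` odd: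
`3 ∣ 2 ^ f + 1`, so `2 ^ f + 1 = 3 ^ b`; `b = 2 * c`: `2 ^ f = (3 ^ c - 1) * (3 ^ c + 1)`, two
powers of 2 differing by 2, so `3 ^ c = 3`, `f = 3`; `b` odd: `3 ^ b - 1 ≡ 2 mod 8`, `f = 1`. -/
def AriQ2 : Prop := ∀ (f : ℕ) (hf : 2 ≤ f) (h1 : IsPrimePow (2 ^ f - 1))
    (h2 : IsPrimePow (2 ^ f + 1)), f = 2 ∨ f = 3

/-- D9 (no universe parameter).  An element `sr i` has order 2, so it is not in a subgroup of
order 9; so `P` consists of the nine `r i` and contains `r 1` (`DihedralGroup.orderOf_r_one`). -/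
def D9 : Prop := ∀ (P : Subgroup (DihedralGroup 9)) (hP : Nat.card P = 9),
    ∃ x ∈ P, orderOf x = 9

/-- Q8 (no universe parameter).  `L := PSL₂(F)`, `|L| = 504` (`CardPSL`, `f = 3`), `P` a Sylow
3-subgroup, `|P| = 9`, `P ≠ ⊤`, `M ≥ P` a coatom (`eq_top_or_exists_le_coatom`).  Landed
`Cfsg.Agent.S5893.result heven h4 M hM`: `|M| = 8 * 7` (`9 ∤ 56`); `M ≃* DihedralGroup 7`
(`9 ∤ 14`); `M ≃* DihedralGroup 9`: by `D9` the image of `P` contains an element of order 9, so
`L` has one, against `EPO`; subfield case: landed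
`Cfsg.Agent.Lib.Helper12.SNARITH.main 3 _ F₀ r hr hne h` (`h : 2 ^ 3 = Fintype.card F₀ ^ r`). -/
def Q8 : Prop := D9 → CardPSL → ∀ (F : Type) [Field F] [Fintype F] (hF : Fintype.card F = 8)
    (hE : EPO (Matrix.ProjectiveSpecialLinearGroup (Fin 2) F)), False

/-- Q4 (no universe parameter).  As in the landed `Cfsg/Agent/S0253.lean`: simple by Mathlib's
`Matrix.ProjectiveSpecialLinearGroup.rank_two_simple`, of order 60 by `CardPSL` (`f = 2`), then
the landed `Cfsg.Agent.S0494.result` (a simple group of order 60). -/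
def Q4 : Prop := CardPSL → ∀ (F : Type) [Field F] [Fintype F] (hF : Fintype.card F = 4),
    Nonempty (Matrix.ProjectiveSpecialLinearGroup (Fin 2) F ≃* alternatingGroup (Fin 5))

end Cfsg.Agent.Lib.Helper12.AOStmt
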