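import Mathlib
import Cfsg.Agent.Lib.Helper12.AOStmt

/-!
S4068, piece ARIQ2: if `2 ^ f - 1` and `2 ^ f + 1` are prime powers (`f ≥ 2`) then `f = 2` or
`f = 3` (helper12).
-/

set_option autoImplicit false

namespace Cfsg.Agent.Lib.Helper12.AOARIQ2

open Cfsg.Agent.Lib.Helper12.AOStmt

theorem pow_three_of_dvd {n : ℕ} (h : IsPrimePow n) (h3 : 3 ∣ n) : ∃ k : ℕ, 0 < k ∧ n = 3 ^ k := by
  obtain ⟨p, k, hp, hk, rfl⟩ := (isPrimePow_nat_iff n).mp h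
  have h1 : 3 ∣ p := Nat.Prime.dvd_of_dvd_pow Nat.prime_three h3
  have h2 : 3 = p := (Nat.prime_dvd_prime_iff_eq Nat.prime_three hp).mp h1
  exact ⟨k, hk, by rw [← h2]⟩

theorem even_case (m : ℕ) (hm : 1 ≤ m) (h1 : IsPrimePow (2 ^ (2 * m) - 1)) : m = 1 := by
  have h4 : (2 : ℕ) ^ (2 * m) = 4 ^ m := by rw [pow_mul]; norm_num
  have hmod : 4 ^ m % 3 = 1 := by
    rw [Nat.pow_mod]; norm_num
  have h4pos : 1 ≤ 4 ^ m := Nat.one_le_pow _ _ (by norm_num)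
  have h3 : 3 ∣ 2 ^ (2 * m) - 1 := by
    rw [h4]; omega
  obtain ⟨k, hk, hk3⟩ := pow_three_of_dvd h1 h3
  by_contra hne
  have hm2 : 2 ≤ m := by omega
  have h2m : 4 ≤ 2 ^ m := by
    calc 4 = 2 ^ 2 := by norm_num
      _ ≤ 2 ^ m := Nat.pow_le_pow_right (by norm_num) hm2
  have hfac : 2 ^ (2 * m) - 1 = (2 ^ m - 1) * (2 ^ m + 1) := by
    have h5 : (2 : ℕ) ^ (2 * m) = 2 ^ m * 2 ^ m := by rw [two_mul, pow_add]
    rw [h5]
    have h6 : 1 ≤ 2 ^ m := by omega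
    zify [h6, Nat.one_le_iff_ne_zero.mpr (Nat.mul_ne_zero (by omega : 2 ^ m ≠ 0) (by omega : 2 ^ m ≠ 0))]
    ring
  have hd1 : 2 ^ m - 1 ∣ 3 ^ k := by rw [← hk3, hfac]; exact dvd_mul_right _ _
  have hd2 : 2 ^ m + 1 ∣ 3 ^ k := by rw [← hk3, hfac]; exact dvd_mul_left _ _
  obtain ⟨i, -, hi⟩ := (Nat.dvd_prime_pow Nat.prime_three).mp hd1
  obtain ⟨j, -, hj⟩ := (Nat.dvd_prime_pow Nat.prime_three).mp hd2
  have hi1 : 1 ≤ i := by
    by_contra h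
    have h0 : i = 0 := by omega
    rw [h0, pow_zero] at hi
    omega
  have hj1 : 1 ≤ j := by
    by_contra h
    have h0 : j = 0 := by omega
    rw [h0, pow_zero] at hj
    omega
  have h3i : 3 ∣ 2 ^ m - 1 := by rw [hi]; exact dvd_pow_self 3 (by omega)
  have h3j : 3 ∣ 2 ^ m + 1 := by rw [hj]; exact dvd_pow_self 3 (by omega)
  omega

theorem odd_case (m : ℕ) (hm : 1 ≤ m) (h2 : IsPrimePow (2 ^ (2 * m + 1) + 1)) : m = 1 := by
  have h4 : (2 : ℕ) ^ (2 * m + 1) = 2 * 4 ^ m := by rw [pow_succ, pow_mul]; norm_num; ring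
  have hmod : 4 ^ m % 3 = 1 := by
    rw [Nat.pow_mod]; norm_num
  have h3 : 3 ∣ 2 ^ (2 * m + 1) + 1 := by
    rw [h4]; omega
  obtain ⟨b, hb, hb3⟩ := pow_three_of_dvd h2 h3
  -- `2 ^ (2m+1)` is divisible by 8
  have h8 : 8 ∣ 2 ^ (2 * m + 1) := by
    have h5 : (2 : ℕ) ^ (2 * m + 1) = 2 ^ 3 * 2 ^ (2 * m - 2) := by
      rw [← pow_add]; congr 1; omega
    rw [h5]; exact dvd_mul_right _ _
  -- so `b` is even
  have hbe : Even b := by
    by_contra hodd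
    rw [Nat.not_even_iff_odd] at hodd
    obtain ⟨c, rfl⟩ := hodd
    have h9 : (3 : ℕ) ^ (2 * c + 1) = 3 * 9 ^ c := by rw [pow_succ, pow_mul]; norm_num; ring
    have h9mod : 9 ^ c % 8 = 1 := by rw [Nat.pow_mod]; norm_num
    rw [h9] at hb3
    omega
  obtain ⟨c, rfl⟩ := hbe
  have hc1 : 1 ≤ c := by omega
  have h3c : 3 ≤ 3 ^ c := by
    calc 3 = 3 ^ 1 := by norm_num
      _ ≤ 3 ^ c := Nat.pow_le_pow_right (by norm_num) hc1
  have hfac : 2 ^ (2 * m + 1) = (3 ^ c - 1) * (3 ^ c + 1) := by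
    have h5 : (3 : ℕ) ^ (c + c) = 3 ^ c * 3 ^ c := by rw [pow_add]
    have h6 : 2 ^ (2 * m + 1) = 3 ^ c * 3 ^ c - 1 := by rw [← h5]; omega
    rw [h6]
    have h7 : 1 ≤ 3 ^ c := by omega
    have h8' : 1 ≤ 3 ^ c * 3 ^ c := by nlinarith
    zify [h7, h8']
    ring
  have hd1 : 3 ^ c - 1 ∣ 2 ^ (2 * m + 1) := by rw [hfac]; exact dvd_mul_right _ _
  have hd2 : 3 ^ c + 1 ∣ 2 ^ (2 * m + 1) := by rw [hfac]; exact dvd_mul_left _ _
  obtain ⟨i, -, hi⟩ := (Nat.dvd_prime_pow Nat.prime_two).mp hd1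
  obtain ⟨j, -, hj⟩ := (Nat.dvd_prime_pow Nat.prime_two).mp hd2
  have hj2 : 2 ≤ j := by
    by_contra h
    have hj' : j ≤ 1 := by omega
    have : 2 ^ j ≤ 2 ^ 1 := Nat.pow_le_pow_right (by norm_num) hj'
    omega
  have hi1 : i ≤ 1 := by
    by_contra h
    have hi2 : 2 ≤ i := by omega
    have h4i : 4 ∣ 2 ^ i := by
      have : (2 : ℕ) ^ i = 2 ^ 2 * 2 ^ (i - 2) := by rw [← pow_add]; congr 1; omega
      rw [this]; exact dvd_mul_right _ _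
    have h4j : 4 ∣ 2 ^ j := by
      have : (2 : ℕ) ^ j = 2 ^ 2 * 2 ^ (j - 2) := by rw [← pow_add]; congr 1; omega
      rw [this]; exact dvd_mul_right _ _
    rw [← hi] at h4i
    rw [← hj] at h4j
    omega
  have h3c3 : 3 ^ c = 3 := by
    have : 2 ^ i ≤ 2 ^ 1 := Nat.pow_le_pow_right (by norm_num) hi1
    omega
  rw [h3c3] at hfac
  have h23 : (2 : ℕ) ^ (2 * m + 1) = 2 ^ 3 := by rw [hfac]; norm_num
  have := Nat.pow_right_injective (le_refl 2) h23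
  omega

theorem main : AriQ2 := by
  intro f hf h1 h2
  rcases Nat.even_or_odd' f with ⟨m, rfl | rfl⟩
  · left
    have := even_case m (by omega) h1
    omega
  · right
    have := odd_case m (by omega) h2
    omega

end Cfsg.Agent.Lib.Helper12.AOARIQ2
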