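import Mathlib
import Cfsg.Agent.Lib.Helper12.AOStmt

/-!
S4068, piece D9: a subgroup of order 9 of the dihedral group of order 18 contains an element of
order 9 (helper12).
-/

set_option autoImplicit false

namespace Cfsg.Agent.Lib.Helper12.AOD9

open Cfsg.Agent.Lib.Helper12.AOStmt

theorem main : D9 := by
  intro P hP
  have hle : P ≤ Subgroup.zpowers (DihedralGroup.r 1 : DihedralGroup 9) := by
    intro x hx
    cases x with
    | r i =>
      rw [Subgroup.mem_zpowers_iff]
      refine ⟨(i.val : ℤ), ?_⟩
      rw [zpow_natCast, DihedralGroup.r_one_pow, ZMod.natCast_zmod_val]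
    | sr i =>
      exfalso
      have h2 : orderOf (DihedralGroup.sr i : DihedralGroup 9) = 2 := DihedralGroup.orderOf_sr i
      have hdvd : orderOf (⟨DihedralGroup.sr i, hx⟩ : P) ∣ Nat.card P := orderOf_dvd_natCard _
      rw [Subgroup.orderOf_mk, h2, hP] at hdvd
      omega
  have hcard : Nat.card (Subgroup.zpowers (DihedralGroup.r 1 : DihedralGroup 9)) = 9 := by
    rw [Nat.card_zpowers, DihedralGroup.orderOf_r_one]
  have heq : P = Subgroup.zpowers (DihedralGroup.r 1 : DihedralGroup 9) :=
    Subgroup.eq_of_le_of_card_ge hle (by rw [hcard, hP])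
  refine ⟨DihedralGroup.r 1, ?_, DihedralGroup.orderOf_r_one⟩
  rw [heq]
  exact Subgroup.mem_zpowers _

end Cfsg.Agent.Lib.Helper12.AOD9
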