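import Mathlib
import Cfsg.Agent.Lib.Helper32.D8Stmt

set_option autoImplicit false

/-!
# S3716: local pair sums over two `N`-classes of different `w`-parity vanish
-/

namespace Cfsg.Agent.Lib.Helper12.D8LOCpar

open Cfsg Cfsg.Agent.Lib.Helper32.D8Stmt

universe u

/-- the pair sum over the `N`-classes of `c` and `d` vanishes when the `w`-exponents of their
normal forms have different parities: the products then lie outside `C_G(x)` -/
theorem vanish {G : Type u} [Group G] [Fintype G] {T N : Subgroup G} {x y a b w : G}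
    (hNF : NF.{u}) (hcfg : Cfg T N x y a b w) (c d : G) (mc md : ℕ)
    (hc : ∃ i j k l : ℕ, c = x ^ i * y ^ j * a ^ k * b ^ l * w ^ mc)
    (hd : ∃ i j k l : ℕ, d = x ^ i * y ^ j * a ^ k * b ^ l * w ^ md)
    (hodd : (mc + md) % 2 = 1) (φ : Subgroup.centralizer ({x} : Set G) → ℂ) :
    lsum N (Subgroup.centralizer ({x} : Set G)) φ c d = 0 := by
  obtain ⟨-, hN, huniq, hprod, hCx, -, -⟩ := hNF hcfg
  -- `Q g m`: `g` has a normal form with `w`-exponent `m`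
  obtain ⟨Q, hQ⟩ : ∃ Q : G → ℕ → Prop, ∀ g m, Q g m ↔
      ∃ i j k l : ℕ, g = x ^ i * y ^ j * a ^ k * b ^ l * w ^ m := ⟨_, fun g m => Iff.rfl⟩
  have hmul : ∀ g g' m m', Q g m → Q g' m' → Q (g * g') (m + m') := by
    intro g g' m m' hg hg'
    rw [hQ] at hg hg' ⊢
    obtain ⟨i, j, k, l, rfl⟩ := hg
    obtain ⟨i', j', k', l', rfl⟩ := hg'
    rw [hprod]
    split_ifs <;> exact ⟨_, _, _, _, rfl⟩
  have hun : ∀ g m m', Q g m → Q g m' → m % 2 = m' % 2 := by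
    intro g m m' hg hg'
    rw [hQ] at hg hg'
    obtain ⟨i, j, k, l, rfl⟩ := hg
    obtain ⟨i', j', k', l', h⟩ := hg'
    exact (huniq _ _ _ _ _ _ _ _ _ _ h).2.2.2.2
  have hQ1 : Q 1 0 := by
    rw [hQ]; exact ⟨0, 0, 0, 0, by simp⟩
  have hQN : ∀ n ∈ N, ∃ m, Q n m := by
    intro n hn
    obtain ⟨i, j, k, l, m, h⟩ := (hN n).mp hn
    exact ⟨m, (hQ n m).mpr ⟨i, j, k, l, h⟩⟩
  -- conjugation preserves the parity
  have hconj : ∀ n ∈ N, ∀ g m, Q g m → ∃ m', Q (n * g * n⁻¹) m' ∧ m' % 2 = m % 2 := by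
    intro n hn g m hg
    obtain ⟨m1, h1⟩ := hQN n hn
    obtain ⟨m2, h2⟩ := hQN n⁻¹ (inv_mem hn)
    have h3 := hmul _ _ _ _ h1 h2
    rw [mul_inv_cancel] at h3
    have h4 := hun _ _ _ h3 hQ1
    refine ⟨m1 + m + m2, hmul _ _ _ _ (hmul _ _ _ _ h1 hg) h2, ?_⟩
    omega
  have hQc : Q c mc := (hQ c mc).mpr hc
  have hQd : Q d md := (hQ d md).mpr hd
  unfold lsum
  apply Finset.sum_eq_zero
  intro u₁ hu₁
  apply Finset.sum_eq_zero
  intro u₂ hu₂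
  simp only [ncl, Finset.mem_filter, Finset.mem_univ, true_and] at hu₁ hu₂
  obtain ⟨n₁, hn₁, rfl⟩ := hu₁
  obtain ⟨n₂, hn₂, rfl⟩ := hu₂
  obtain ⟨m₁, hm₁, hp₁⟩ := hconj n₁ hn₁ c mc hQc
  obtain ⟨m₂, hm₂, hp₂⟩ := hconj n₂ hn₂ d md hQd
  have hQp := hmul _ _ _ _ hm₁ hm₂
  unfold extendByZero
  apply Function.extend_apply'
  rintro ⟨⟨h, hh⟩, hval⟩
  have hval' : h = n₁ * c * n₁⁻¹ * (n₂ * d * n₂⁻¹) := hval
  obtain ⟨i, j, l, hijl⟩ := (hCx h).mp hh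
  have hQh : Q h 0 := by
    rw [hQ]; exact ⟨i, j, 0, l, by rw [hijl]; simp⟩
  rw [hval'] at hQh
  have h5 := hun _ _ _ hQp hQh
  omega

end Cfsg.Agent.Lib.Helper12.D8LOCpar
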