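import Mathlib
import Cfsg.Agent.Lib.Helper32.D8Stmt
import Cfsg.Agent.Lib.Helper12.D8LOCpar

set_option autoImplicit false

/-!
# S3716 piece LOCaw: the local pair sums over the `N`-classes of `a` and `w` vanish
-/

namespace Cfsg.Agent.Lib.Helper12.D8LOCaw

open Cfsg Cfsg.Agent.Lib.Helper32.D8Stmt

universe u

theorem main (hNF : NF.{u}) : LOCaw.{u} := by
  intro G _ _ T N x y a b w hcfg f g _
  have hc : ∃ i j k l : ℕ, a = x ^ i * y ^ j * a ^ k * b ^ l * w ^ 0 :=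
    ⟨0, 0, 1, 0, by simp⟩
  have hd : ∃ i j k l : ℕ, w = x ^ i * y ^ j * a ^ k * b ^ l * w ^ 1 :=
    ⟨0, 0, 0, 0, by simp⟩
  exact ⟨Cfsg.Agent.Lib.Helper12.D8LOCpar.vanish hNF hcfg a w 0 1 hc hd (by norm_num) _,
    Cfsg.Agent.Lib.Helper12.D8LOCpar.vanish hNF hcfg a w 0 1 hc hd (by norm_num) _⟩

end Cfsg.Agent.Lib.Helper12.D8LOCaw
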