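import Mathlib
import Cfsg.Agent.Lib.Helper12.EMC2FIX
import Cfsg.Agent.Lib.Helper41.TMWire
import Cfsg.Agent.Lib.Helper11.EMCANCEL
import Cfsg.Agent.Lib.Helper35.EMSUBTYPE

/-!
# S5990 / C2FIX: hypothesis-free form of `Helper12.EMC2FIX.main`, from the landed pieces.
-/

set_option autoImplicit false

universe u

namespace Cfsg.Agent.Lib.Helper12.EMC2FIXW

theorem main : Cfsg.Agent.Lib.Helper41.EMStmt.C2Fix.{u} :=
  Cfsg.Agent.Lib.Helper12.EMC2FIX.main Cfsg.Agent.Lib.Helper41.TMWire.hTop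
    Cfsg.Agent.Lib.Helper41.TMWire.hSubPerp Cfsg.Agent.Lib.Helper41.TMWire.hOrthSum
    Cfsg.Agent.Lib.Helper41.TMWire.hTsIn Cfsg.Agent.Lib.Helper11.EMCANCEL.main
    Cfsg.Agent.Lib.Helper35.EMSUBTYPE.main

end Cfsg.Agent.Lib.Helper12.EMC2FIXW
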