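import Mathlib
import Cfsg.Agent.Lib.Helper51.EqC1
import Cfsg.Agent.Lib.Helper51.EqC2
import Cfsg.Agent.Lib.Helper18.P4022
import Cfsg.Agent.Lib.Helper71.EqQD
import Cfsg.Agent.Lib.Helper71.EqRS
import Cfsg.Agent.Lib.Helper71.EqSI
import Cfsg.Agent.Lib.Helper71.EqZH

/-!
# Solvable groups whose p-subgroups of equal order are conjugate, with cyclic Sylow subgroups
for all primes but one: all subgroups of equal order are conjugate (helper12, assembly for S4022)
-/

set_option autoImplicit false

namespace Cfsg.Agent.Lib.Helper12.EoMain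

universe u

/-- A cyclic group all of whose elements have order dividing the prime `q` has order at most
`q`. -/
theorem card_le_of_cyclic_of_pow {N : Type*} [Group N] [Finite N] [IsCyclic N] (q : ℕ)
    (h : ∀ x : N, x ^ q = 1) : Nat.card N ∣ q := by
  rw [← IsCyclic.exponent_eq_card]
  exact Monoid.exponent_dvd_of_forall_pow_eq_one h

/-- The induction. -/
theorem main (n : ℕ) : ∀ (G : Type u) [Group G] [Finite G] [Group.IsSolvable G],
    Nat.card G = n →
    (∀ p : ℕ, p.Prime → ∀ H K : Subgroup G, IsPGroup p H → IsPGroup p K →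
      Nat.card H = Nat.card K → ∃ g : G, K = H.map (MulAut.conj g).toMonoidHom) →
    ∀ r : ℕ, (∀ p : ℕ, p.Prime → p ≠ r → ∀ P : Sylow p G, IsCyclic P) →
    ∀ H K : Subgroup G, Nat.card H = Nat.card K →
      ∃ g : G, K = H.map (MulAut.conj g).toMonoidHom := by
  induction n using Nat.strong_induction_on with
  | _ n ih =>
  intro G _ _ _ hn hD r hcyc H K hHK
  classical
  rcases subsingleton_or_nontrivial G with hsub | hnt
  · refine ⟨1, ?_⟩
    have h1 : H = ⊥ := Subsingleton.elim _ _
    have h2 : K = ⊥ := Subsingleton.elim _ _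
    rw [h1, h2, Subgroup.map_bot]
  obtain ⟨q, N, hq, hNn, hNbot, hNq, hNc⟩ := Cfsg.Agent.Lib.Helper18.P4022.exists_normal_elementary (G := G)
  have : Fact q.Prime := ⟨hq⟩
  have hNp : IsPGroup q N := by
    intro x
    refine ⟨1, ?_⟩
    rw [pow_one]
    exact Subtype.ext (hNq x x.2)
  obtain ⟨k, hk⟩ := hNp.exists_card_eq
  have hk0 : k ≠ 0 := by
    rintro rfl
    rw [pow_zero] at hk
    exact hNbot ((Subgroup.eq_bot_iff_card N).mpr hk)
  by_cases hk1 : k = 1
  · -- `N` has prime order: pass to the quotient
    rw [hk1, pow_one] at hk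
    have huniq : ∀ U : Subgroup G, Nat.card U = q → U = N := by
      intro U hU
      obtain ⟨g, hg⟩ := hD q hq N U hNp (IsPGroup.of_card (n := 1) (by rw [hU, pow_one]))
        (by rw [hk, hU])
      rw [hg]
      exact le_antisymm
        (by rintro _ ⟨x, hx, rfl⟩; exact hNn.conj_mem x hx g)
        (by
          intro x hx
          refine ⟨g⁻¹ * x * g, ?_, ?_⟩
          · have := hNn.conj_mem x hx g⁻¹
            simpa using this
          · simp [MulAut.conj_apply, mul_assoc])
    have hlt : Nat.card (G ⧸ N) < n := by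
      rw [← hn, ← Subgroup.card_mul_index N, ← Subgroup.index_eq_card, hk]
      have hpos : 0 < N.index := Nat.pos_of_ne_zero Subgroup.index_ne_zero_of_finite
      have := hq.one_lt
      nlinarith
    exact Cfsg.Agent.Lib.Helper51.EqC1.case_one N hk huniq
      (ih _ hlt (G ⧸ N) rfl (fun p hp => Cfsg.Agent.Lib.Helper71.EqQD.hD_quot N p hp (hD p hp)) r
        (fun p hp hpr => Cfsg.Agent.Lib.Helper18.P4022.cyclic_quot N p hp (hcyc p hp hpr))) H K hHK
  · -- `N` is the Sylow `r`-subgroup
    have hk2 : 2 ≤ k := by omega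
    have hqr : q = r := by
      by_contra hqr
      obtain ⟨P, hP⟩ := hNp.exists_le_sylow
      have := hcyc q hq hqr P
      have : IsCyclic N := by
        have hinj : Function.Injective (Subgroup.inclusion hP) := Subgroup.inclusion_injective hP
        exact isCyclic_of_injective (Subgroup.inclusion hP) hinj
      have h1 := card_le_of_cyclic_of_pow (N := N) q (fun x => Subtype.ext (hNq x x.2))
      rw [hk] at h1
      have h2 : q ^ 2 ∣ q := (pow_dvd_pow q hk2).trans h1
      have h3 := Nat.le_of_dvd hq.pos h2
      have := hq.one_lt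
      nlinarith
    subst hqr
    have hq2 : q ^ 2 ∣ Nat.card N := by rw [hk]; exact pow_dvd_pow q hk2
    have hSyl : ∀ P : Sylow q G, (P : Subgroup G) = N :=
      fun P => Cfsg.Agent.Lib.Helper71.EqRS.sylow_eq_of_elementary (hD q hq) N hNq hq2 P
    have hidx : ¬ q ∣ N.index := by
      obtain ⟨P⟩ : Nonempty (Sylow q G) := inferInstance
      rw [← hSyl P]
      exact P.not_dvd_index
    have hqG : q ∣ Nat.card G := by
      have h1 : q ∣ Nat.card N := by rw [hk]; exact dvd_pow_self q hk0
      exact h1.trans (Subgroup.card_subgroup_dvd_card N)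
    -- conjugate so that the intersections with `N` agree
    have hAB := Cfsg.Agent.Lib.Helper71.EqSI.card_inf_eq N hNp hidx H K hHK
    obtain ⟨g, hg⟩ := hD q hq (H ⊓ N) (K ⊓ N) (hNp.to_le inf_le_right) (hNp.to_le inf_le_right)
      hAB
    have hNg : N.map (MulAut.conj g).toMonoidHom = N := by
      apply le_antisymm
      · rintro _ ⟨x, hx, rfl⟩
        exact hNn.conj_mem x hx g
      · intro x hx
        refine ⟨g⁻¹ * x * g, ?_, ?_⟩
        · have := hNn.conj_mem x hx g⁻¹
          simpa using this
        · simp [MulAut.conj_apply, mul_assoc]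
    have hA : H.map (MulAut.conj g).toMonoidHom ⊓ N = K ⊓ N := by
      rw [hg, Subgroup.map_inf _ _ _ (MulAut.conj g).injective, hNg]
    have hcard' : Nat.card (H.map (MulAut.conj g).toMonoidHom) = Nat.card K := by
      rw [Subgroup.card_map_of_injective (MulAut.conj g).injective, hHK]
    have hZ : ∀ Y : Subgroup G, (Nat.card Y).Coprime q → ∀ H K : Subgroup Y,
        Nat.card H = Nat.card K → ∃ g : Y, K = H.map (MulAut.conj g).toMonoidHom := by
      intro Y hY
      have hlt : Nat.card Y < n := by
        rw [← hn]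
        have hle : Nat.card Y ∣ Nat.card G := Subgroup.card_subgroup_dvd_card Y
        rcases (Nat.le_of_dvd Nat.card_pos hle).lt_or_eq with h | h
        · exact h
        · exfalso
          rw [h] at hY
          exact hq.one_lt.ne' (Nat.Coprime.eq_one_of_dvd hY.symm hqG)
      have hcycY : ∀ p : ℕ, p.Prime → ∀ P : Sylow p Y, IsCyclic P := by
        intro p hp P
        by_cases hpq : p = q
        · subst hpq
          have : Fact p.Prime := ⟨hp⟩
          have h1 : Nat.card P = 1 := by
            obtain ⟨j, hj⟩ := P.2.exists_card_eq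
            have h2 : Nat.card P ∣ Nat.card Y := Subgroup.card_subgroup_dvd_card _
            rcases Nat.eq_zero_or_pos j with rfl | hjpos
            · simpa using hj
            · exfalso
              have h3 : p ∣ Nat.card Y := (hj ▸ dvd_pow_self p hjpos.ne').trans h2
              exact hp.one_lt.ne' (Nat.Coprime.eq_one_of_dvd hY.symm h3)
          have : Subsingleton P := (Nat.card_eq_one_iff_unique.mp h1).1
          exact isCyclic_of_subsingleton
        · exact Cfsg.Agent.Lib.Helper18.P4022.cyclic_subgroup p hp (hcyc p hp hpq) Y P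
      exact ih _ hlt Y rfl (fun p hp => Cfsg.Agent.Lib.Helper71.EqZH.hD_of_cyclic p hp (hcycY p hp)) q
        (fun p hp _ => hcycY p hp)
    obtain ⟨g', hg'⟩ := Cfsg.Agent.Lib.Helper51.EqC2.case_two N hNp hidx hNc hZ (H.map (MulAut.conj g).toMonoidHom) K hA
      hcard'
    refine ⟨g' * g, ?_⟩
    rw [hg', Subgroup.map_map]
    congr 1
    ext x
    simp [MulAut.conj_apply, mul_assoc]

end Cfsg.Agent.Lib.Helper12.EoMain
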