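import Mathlib
import Cfsg.Agent.Lib.Helper68.FixStmt

/-!
# S4414 / SUMS: the permutation-module statement (orbit sums)
-/

set_option autoImplicit false
set_option linter.style.haveILetI false

namespace Cfsg.Agent.Lib.Helper12.FixSUMS

open Cfsg.Agent.Lib.Helper68.FixStmt

universe u v

theorem main : SUMS.{u, v} := by
  intro k _ S _ _ M _ _ _ ρ H T2 w0 q a hT hT2card hq hq2 hli hqB
  classical
  -- the orbit `B`
  obtain ⟨B, hB⟩ : ∃ B : Type v, B = {m : M // ∃ h ∈ H, ρ h w0 = m} := ⟨_, rfl⟩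
  subst hB
  haveI : Finite {m : M // ∃ h ∈ H, ρ h w0 = m} :=
    Finite.of_surjective (fun s : ↥H => (⟨ρ (s : S) w0, s, s.2, rfl⟩ : {m : M // ∃ h ∈ H, ρ h w0 = m}))
      (by
        rintro ⟨m, h, hh, rfl⟩
        exact ⟨⟨h, hh⟩, rfl⟩)
  haveI : Fintype {m : M // ∃ h ∈ H, ρ h w0 = m} := Fintype.ofFinite _
  -- the action of `H` on `B`
  have hmul : ∀ (s h : S) (m : M), ρ s (ρ h m) = ρ (s * h) m := by
    intro s h m
    rw [map_mul, Module.End.mul_apply]
  obtain ⟨actE, hact⟩ : ∃ actE : ↥H → ({m : M // ∃ h ∈ H, ρ h w0 = m} ≃ {m : M // ∃ h ∈ H, ρ h w0 = m}),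
      ∀ s b, ((actE s b : {m : M // ∃ h ∈ H, ρ h w0 = m}) : M) = ρ (s : S) (b : M) := by
    refine ⟨fun s =>
      { toFun := fun b => ⟨ρ (s : S) (b : M), by
          obtain ⟨h, hh, e⟩ := b.2
          exact ⟨s * h, H.mul_mem s.2 hh, by rw [← hmul, e]⟩⟩
        invFun := fun b => ⟨ρ ((s : S)⁻¹) (b : M), by
          obtain ⟨h, hh, e⟩ := b.2
          exact ⟨(s : S)⁻¹ * h, H.mul_mem (H.inv_mem s.2) hh, by rw [← hmul, e]⟩⟩
        left_inv := fun b => Subtype.ext (by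
          show ρ ((s : S)⁻¹) (ρ (s : S) (b : M)) = (b : M)
          rw [hmul, inv_mul_cancel, map_one, Module.End.one_apply])
        right_inv := fun b => Subtype.ext (by
          show ρ (s : S) (ρ ((s : S)⁻¹) (b : M)) = (b : M)
          rw [hmul, mul_inv_cancel, map_one, Module.End.one_apply]) }, fun s b => rfl⟩
  -- the `T2`-orbit of `w0`
  obtain ⟨O₁, hO₁⟩ : ∃ O₁ : Finset {m : M // ∃ h ∈ H, ρ h w0 = m},
      ∀ b, b ∈ O₁ ↔ ∃ t ∈ T2, ρ t w0 = (b : M) :=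
    ⟨Finset.univ.filter (fun b => ∃ t ∈ T2, ρ t w0 = (b : M)), fun b => by
      rw [Finset.mem_filter]
      exact ⟨fun h => h.2, fun h => ⟨Finset.mem_univ _, h⟩⟩⟩
  obtain ⟨b₀, hb₀⟩ : ∃ b₀ : {m : M // ∃ h ∈ H, ρ h w0 = m}, (b₀ : M) = w0 :=
    ⟨⟨w0, 1, H.one_mem, by rw [map_one, Module.End.one_apply]⟩, rfl⟩
  have hb₀O : b₀ ∈ O₁ := by
    rw [hO₁]
    exact ⟨1, T2.one_mem, by rw [map_one, Module.End.one_apply, hb₀]⟩
  -- `T2` preserves `O₁`
  have hO₁inv : ∀ t : ↥H, (t : S) ∈ T2 → ∀ b, b ∈ O₁ ↔ actE t b ∈ O₁ := by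
    intro t ht b
    rw [hO₁, hO₁]
    constructor
    · rintro ⟨t', ht', e⟩
      exact ⟨t * t', T2.mul_mem ht ht', by rw [hact, ← e, hmul]⟩
    · rintro ⟨t', ht', e⟩
      refine ⟨(t : S)⁻¹ * t', T2.mul_mem (T2.inv_mem ht) ht', ?_⟩
      rw [← hmul, e, hact, hmul, inv_mul_cancel, map_one, Module.End.one_apply]
  -- the size of `O₁` is a power of `2`
  have hcardO : ∃ n : ℕ, O₁.card = 2 ^ n := by
    letI : MulAction ↥T2 M := MulAction.compHom M ((ρ : S →* Module.End k M).comp T2.subtype)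
    have hsm : ∀ (t : ↥T2) (m : M), t • m = ρ (t : S) m := fun t m => rfl
    have hpg : IsPGroup 2 ↥T2 := IsPGroup.of_card hT2card
    haveI : Finite (MulAction.orbit ↥T2 w0) := (Set.finite_range _).to_subtype
    obtain ⟨n, hn⟩ := hpg.card_orbit w0
    refine ⟨n, ?_⟩
    rw [← hn, ← Nat.card_eq_finsetCard]
    apply Nat.card_congr
    refine Equiv.ofBijective (fun b => ⟨((b : {m : M // ∃ h ∈ H, ρ h w0 = m}) : M), ?_⟩) ⟨?_, ?_⟩
    · obtain ⟨t, ht, e⟩ := (hO₁ _).mp b.2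
      exact ⟨⟨t, ht⟩, e⟩
    · intro b b' hbb
      apply Subtype.ext
      apply Subtype.ext
      have h9 := congrArg (fun x : MulAction.orbit ↥T2 w0 => (x : M)) hbb
      exact h9
    · rintro ⟨m, ⟨t, rfl⟩⟩
      refine ⟨⟨⟨ρ (t : S) w0, t, hT t.2, rfl⟩, (hO₁ _).mpr ⟨t, t.2, rfl⟩⟩, ?_⟩
      apply Subtype.ext
      rfl
  obtain ⟨n, hn⟩ := hcardO
  -- `O₁` is not everything
  have hBcard : Nat.card {m : M // ∃ h ∈ H, ρ h w0 = m} =
      (Finset.univ : Finset {m : M // ∃ h ∈ H, ρ h w0 = m}).card := by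
    rw [Nat.card_eq_fintype_card, Finset.card_univ]
  have hq2' : ∀ j : ℕ, ¬ q ∣ 2 ^ j := by
    intro j hj
    have h1 := hq.dvd_of_dvd_pow hj
    exact hq2 ((Nat.prime_dvd_prime_iff_eq hq Nat.prime_two).mp h1)
  have hne : O₁ ≠ Finset.univ := by
    intro h
    rw [hBcard, ← h, hn] at hqB
    exact hq2' n hqB
  obtain ⟨z, hz⟩ : ∃ z, z ∉ O₁ := by
    by_contra hc
    push Not at hc
    exact hne (Finset.eq_univ_of_forall hc)
  -- indicator sums
  have hind : ∀ A : Finset {m : M // ∃ h ∈ H, ρ h w0 = m},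
      ∑ b, (if b ∈ A then (1 : k) else 0) • (b : M) = ∑ b ∈ A, (b : M) := by
    intro A
    calc ∑ b, (if b ∈ A then (1 : k) else 0) • (b : M)
        = ∑ b, (if b ∈ A then (b : M) else 0) :=
          Finset.sum_congr rfl (fun b _ => by split_ifs <;> simp)
      _ = ∑ b ∈ A, (b : M) := by rw [Finset.sum_ite_mem, Finset.univ_inter]
  have key : ∀ (A : Finset {m : M // ∃ h ∈ H, ρ h w0 = m}) (c₁ c₂ : k),
      c₁ • ∑ b ∈ O₁, (b : M) + c₂ • ∑ b ∈ O₁ᶜ, (b : M) = ∑ b ∈ A, (b : M) →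
      ∀ b, (if b ∈ A then (1 : k) else 0) =
        c₁ * (if b ∈ O₁ then 1 else 0) + c₂ * (if b ∈ O₁ᶜ then 1 else 0) := by
    intro A c₁ c₂ h b
    have hsum : ∑ b : {m : M // ∃ h ∈ H, ρ h w0 = m}, ((if b ∈ A then (1 : k) else 0) -
        (c₁ * (if b ∈ O₁ then 1 else 0) + c₂ * (if b ∈ O₁ᶜ then 1 else 0))) • (b : M) = 0 := by
      simp only [sub_smul, add_smul, mul_smul, Finset.sum_sub_distrib, Finset.sum_add_distrib,
        ← Finset.smul_sum, hind]
      rw [h, sub_self]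
    exact sub_eq_zero.mp (Fintype.linearIndependent_iff.mp hli _ hsum b)
  -- the two orbit sums are fixed
  have hfix₁ : ∑ b ∈ O₁, (b : M) ∈ fixT ρ T2 := by
    rw [mem_fixT]
    intro t ht
    rw [map_sum]
    exact Finset.sum_equiv (actE ⟨t, hT ht⟩) (fun b => hO₁inv ⟨t, hT ht⟩ ht b)
      (fun b _ => (hact ⟨t, hT ht⟩ b).symm)
  have hfix₂ : ∑ b ∈ O₁ᶜ, (b : M) ∈ fixT ρ T2 := by
    rw [mem_fixT]
    intro t ht
    rw [map_sum]
    refine Finset.sum_equiv (actE ⟨t, hT ht⟩) (fun b => ?_) (fun b _ => (hact ⟨t, hT ht⟩ b).symm)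
    rw [Finset.mem_compl, Finset.mem_compl]
    exact not_congr (hO₁inv ⟨t, hT ht⟩ ht b)
  -- they are linearly independent
  have hzc : z ∈ O₁ᶜ := Finset.mem_compl.mpr hz
  have hb₀c : b₀ ∉ O₁ᶜ := by
    rw [Finset.mem_compl, not_not]
    exact hb₀O
  have hindep : LinearIndependent k ![∑ b ∈ O₁, (b : M), ∑ b ∈ O₁ᶜ, (b : M)] := by
    rw [LinearIndependent.pair_iff]
    intro s t hst
    have h0 := key ∅ s t (by rw [hst, Finset.sum_empty])
    have h1 := h0 b₀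
    have h2 := h0 z
    rw [if_neg (Finset.notMem_empty _), if_pos hb₀O, if_neg hb₀c, mul_one, mul_zero, add_zero]
      at h1
    rw [if_neg (Finset.notMem_empty _), if_neg hz, if_pos hzc, mul_one, mul_zero, zero_add] at h2
    exact ⟨h1.symm, h2.symm⟩
  have hspanle : Submodule.span k (Set.range ![∑ b ∈ O₁, (b : M), ∑ b ∈ O₁ᶜ, (b : M)]) ≤
      fixT ρ T2 := by
    rw [Submodule.span_le]
    rintro _ ⟨i, rfl⟩
    fin_cases i
    · exact hfix₁
    · exact hfix₂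
  have hfspan : Module.finrank k ↥(Submodule.span k
      (Set.range ![∑ b ∈ O₁, (b : M), ∑ b ∈ O₁ᶜ, (b : M)])) = 2 := by
    rw [finrank_span_eq_card hindep, Fintype.card_fin]
  have h2le : 2 ≤ Module.finrank k ↥(fixT ρ T2) := by
    rw [← hfspan]
    exact Submodule.finrank_mono hspanle
  by_cases h3 : 3 ≤ Module.finrank k ↥(fixT ρ T2)
  · exact Or.inl h3
  right
  have hf2 : Module.finrank k ↥(fixT ρ T2) = 2 := by omega
  refine ⟨hf2, ?_⟩
  intro hinv
  have hspeq : Submodule.span k (Set.range ![∑ b ∈ O₁, (b : M), ∑ b ∈ O₁ᶜ, (b : M)]) =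
      fixT ρ T2 := Submodule.eq_of_le_of_finrank_eq hspanle (by rw [hfspan, hf2])
  obtain ⟨h, hh, hhz⟩ := z.2
  have hzact : actE ⟨h, hh⟩ b₀ = z := by
    apply Subtype.ext
    rw [hact, hb₀]
    exact hhz
  have hmem := hinv h hh _ hfix₁
  rw [← hspeq, Matrix.range_cons_cons_empty, Submodule.mem_span_pair] at hmem
  obtain ⟨c₁, c₂, hc⟩ := hmem
  have hA : ρ h (∑ b ∈ O₁, (b : M)) = ∑ b ∈ O₁.map (actE ⟨h, hh⟩).toEmbedding, (b : M) := by
    rw [map_sum, Finset.sum_map]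
    exact Finset.sum_congr rfl (fun b _ => (hact ⟨h, hh⟩ b).symm)
  rw [hA] at hc
  have hk := key _ c₁ c₂ hc
  have hzA : z ∈ O₁.map (actE ⟨h, hh⟩).toEmbedding := by
    rw [Finset.mem_map]
    exact ⟨b₀, hb₀O, hzact⟩
  have hkz := hk z
  rw [if_pos hzA, if_neg hz, if_pos hzc, mul_zero, zero_add, mul_one] at hkz
  have hcardA : (O₁.map (actE ⟨h, hh⟩).toEmbedding).card = O₁.card := Finset.card_map _
  by_cases hb₀A : b₀ ∈ O₁.map (actE ⟨h, hh⟩).toEmbedding
  · have hkb := hk b₀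
    rw [if_pos hb₀A, if_pos hb₀O, if_neg hb₀c, mul_one, mul_zero, add_zero] at hkb
    have hall : O₁.map (actE ⟨h, hh⟩).toEmbedding = Finset.univ := by
      apply Finset.eq_univ_of_forall
      intro b
      by_contra hb
      have hkb' := hk b
      rw [if_neg hb, ← hkb, ← hkz] at hkb'
      by_cases hbO : b ∈ O₁
      · rw [if_pos hbO, if_neg (by rw [Finset.mem_compl, not_not]; exact hbO)] at hkb'
        simp at hkb'
      · rw [if_neg hbO, if_pos (Finset.mem_compl.mpr hbO)] at hkb'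
        simp at hkb'
    rw [hall] at hcardA
    exact hne (Finset.eq_univ_of_card _ (by rw [← hcardA, Finset.card_univ]))
  · have hkb := hk b₀
    rw [if_neg hb₀A, if_pos hb₀O, if_neg hb₀c, mul_one, mul_zero, add_zero] at hkb
    have hall : O₁.map (actE ⟨h, hh⟩).toEmbedding = O₁ᶜ := by
      ext b
      have hkb' := hk b
      rw [← hkb, ← hkz, zero_mul, zero_add, one_mul] at hkb'
      constructor
      · intro hb
        by_contra hbc
        rw [if_pos hb, if_neg hbc] at hkb'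
        exact one_ne_zero hkb'
      · intro hbc
        by_contra hb
        rw [if_neg hb, if_pos hbc] at hkb'
        exact zero_ne_one hkb'
    rw [hall, Finset.card_compl, hn] at hcardA
    have hB2 : Fintype.card {m : M // ∃ h ∈ H, ρ h w0 = m} = 2 ^ (n + 1) := by
      have := Finset.card_le_univ O₁
      rw [hn] at this
      rw [pow_succ]
      omega
    rw [Nat.card_eq_fintype_card, hB2] at hqB
    exact hq2' (n + 1) hqB

end Cfsg.Agent.Lib.Helper12.FixSUMS
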