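import Mathlib
import Cfsg.Agent.Lib.Helper12.FpfLin
import Cfsg.Agent.Lib.Helper12.FpfIrr

/-!
# Normal subgroups of linear groups transitive on the non-zero vectors (helper12)

`G` acts faithfully on the finite `ZMod p`-module `V`, transitively on the non-zero vectors.

* `irr_of_nonabelian`: a non-abelian normal subgroup acts irreducibly.
* `abelian_normal_fpf`: an abelian normal subgroup acts fixed-point-freely.
-/

set_option autoImplicit false

namespace Cfsg.Agent.Lib.Helper12.HupI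

open Cfsg.Agent.Lib.Helper12.FpfLin

variable {p : ℕ} [Fact p.Prime] {V : Type*} [AddCommGroup V] [Module (ZMod p) V] [Finite V]
variable {G : Type*} [Group G]

/-- If a translate of `W₁` is everything, so is `W₁`. -/
theorem eq_top_of_map_eq_top (ρ : G →* (V ≃ₗ[ZMod p] V)) (g : G) (W₁ : Submodule (ZMod p) V)
    (h : W₁.map (ρ g : V →ₗ[ZMod p] V) = ⊤) : W₁ = ⊤ := by
  rw [eq_top_iff]
  intro u _
  have hu : ρ g u ∈ W₁.map (ρ g : V →ₗ[ZMod p] V) := by rw [h]; exact Submodule.mem_top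
  obtain ⟨w, hw, hwu⟩ := hu
  have : w = u := (ρ g).injective hwu
  rw [← this]; exact hw

/-- On a proper minimal invariant subspace of a normal subgroup `N` of a transitive group, the
elements of `N` commute. -/
theorem comm_on_min {ρ : G →* (V ≃ₗ[ZMod p] V)} (ht : IsTrans ρ)
    (N : Subgroup G) [N.Normal] {W₁ : Submodule (ZMod p) V} (h1 : MinInv ρ N W₁)
    (hW₁top : W₁ ≠ ⊤) {a : V} (ha : a ∈ W₁) (ha0 : a ≠ 0) {n m : G} (hn : n ∈ N) (hm : m ∈ N) :
    ρ (n * m) a = ρ (m * n) a := by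
  classical
  obtain ⟨u, hu⟩ : ∃ u : V, u ∉ W₁ := by
    by_contra hall
    push Not at hall
    exact hW₁top (eq_top_iff.mpr (fun v _ => hall v))
  have hu0 : u ≠ 0 := fun e => hu (e ▸ W₁.zero_mem)
  have htr : ∀ v : V, v ≠ 0 → ∃ W' : Submodule (ZMod p) V, MinInv ρ N W' ∧ v ∈ W' := by
    intro v hv
    obtain ⟨g, hg⟩ := ht a v ha0 hv
    exact ⟨_, h1.map g, ⟨a, ha, hg⟩⟩
  obtain ⟨W₂, h2, hu2⟩ := htr u hu0
  have h12 : W₁ ⊓ W₂ = ⊥ := by
    rcases h1.eq_or_disjoint h2 with e | e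
    · exact absurd (e ▸ hu2) hu
    · exact e
  have h21 : W₂ ⊓ W₁ = ⊥ := by rw [inf_comm]; exact h12
  haveI : Nontrivial W₁ := by
    rw [Submodule.nontrivial_iff_ne_bot]; exact h1.1
  let r : N →* Module.End (ZMod p) W₁ :=
    { toFun := fun n => (ρ (n : G) : V →ₗ[ZMod p] V).restrict (fun v hv => h1.2.1 n n.2 v hv)
      map_one' := by
        ext w
        exact rho_one ρ _
      map_mul' := by
        intro n m
        ext w
        exact rho_mul ρ _ _ _ }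
  have hirr : ∀ W' : Submodule (ZMod p) W₁, (∀ m : N, ∀ w ∈ W', r m w ∈ W') → W' = ⊥ ∨ W' = ⊤ := by
    intro W' hW'
    have hle' : W'.map W₁.subtype ≤ W₁ := by
      rintro _ ⟨w, _, rfl⟩
      exact w.2
    have hinv' : Inv ρ N (W'.map W₁.subtype) := by
      rintro n hn _ ⟨w, hw, rfl⟩
      exact ⟨r ⟨n, hn⟩ w, hW' ⟨n, hn⟩ w hw, rfl⟩
    rcases h1.2.2 _ hle' hinv' with e | e
    · left
      apply Submodule.map_injective_of_injective W₁.injective_subtype
      rw [e, Submodule.map_bot]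
    · right
      rw [eq_top_iff]
      intro w _
      have : (w : V) ∈ W'.map W₁.subtype := by rw [e]; exact w.2
      obtain ⟨w', hw', e'⟩ := this
      have : w' = w := Subtype.ext e'
      rw [← this]
      exact hw'
  have htrans : ∀ b : V, b ∈ W₁ → b ≠ 0 → ∃ f : Module.End (ZMod p) W₁,
      (∀ m, f * r m = r m * f) ∧ ((f ⟨a, ha⟩ : W₁) : V) = b := by
    intro b hb hb0
    have hau : a + u ≠ 0 := by
      intro e
      apply hu
      have : u = -a := eq_neg_of_add_eq_zero_right e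
      rw [this]
      exact W₁.neg_mem ha
    have hub : u + b ≠ 0 := by
      intro e
      apply hu
      have : u = -b := eq_neg_of_add_eq_zero_left e
      rw [this]
      exact W₁.neg_mem hb
    obtain ⟨W₃, h3, hau3⟩ := htr _ hau
    obtain ⟨W₄, h4, hub4⟩ := htr _ hub
    obtain ⟨φ, hφ, hφa⟩ := exists_equivariant h1 h2 h3 h12 ha ha0 hu2 hau3
    obtain ⟨ψ, hψ, hψu⟩ := exists_equivariant h2 h1 h4 h21 hu2 hu0 hb hub4
    refine ⟨ψ ∘ₗ φ, ?_, ?_⟩
    · intro m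
      ext w
      show ((ψ (φ (r m w)) : W₁) : V) = ρ (m : G) ((ψ (φ w) : W₁) : V)
      have e1 : φ (r m w) = ⟨ρ (m : G) ((φ w : W₂) : V), h2.2.1 m m.2 _ (φ w).2⟩ := by
        apply Subtype.ext
        exact hφ m m.2 w (h1.2.1 m m.2 _ w.2)
      rw [e1]
      exact hψ m m.2 (φ w) _
    · show ((ψ (φ ⟨a, ha⟩) : W₁) : V) = b
      have e1 : φ ⟨a, ha⟩ = ⟨u, hu2⟩ := Subtype.ext hφa
      rw [e1]
      exact hψu
  have hna : ρ n a ≠ 0 := fun e => ha0 ((LinearEquiv.map_eq_zero_iff _).mp e)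
  have hma : ρ m a ≠ 0 := fun e => ha0 ((LinearEquiv.map_eq_zero_iff _).mp e)
  obtain ⟨fn, hfn, hfna⟩ := htrans (ρ n a) (h1.2.1 n hn a ha) hna
  obtain ⟨fm, hfm, hfma⟩ := htrans (ρ m a) (h1.2.1 m hm a ha) hma
  have hcomm := commutant_comm r hirr fn fm hfn hfm
  have hfna' : fn ⟨a, ha⟩ = r ⟨n, hn⟩ ⟨a, ha⟩ := Subtype.ext hfna
  have hfma' : fm ⟨a, ha⟩ = r ⟨m, hm⟩ ⟨a, ha⟩ := Subtype.ext hfma
  have key : r ⟨n, hn⟩ (r ⟨m, hm⟩ ⟨a, ha⟩) = r ⟨m, hm⟩ (r ⟨n, hn⟩ ⟨a, ha⟩) := by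
    have e1 : r ⟨n, hn⟩ (r ⟨m, hm⟩ ⟨a, ha⟩) = fm (fn ⟨a, ha⟩) := by
      rw [← hfma', ← Module.End.mul_apply, ← hfm, Module.End.mul_apply, hfna']
    have e2 : r ⟨m, hm⟩ (r ⟨n, hn⟩ ⟨a, ha⟩) = fn (fm ⟨a, ha⟩) := by
      rw [← hfna', ← Module.End.mul_apply, ← hfn, Module.End.mul_apply, hfma']
    rw [e1, e2, ← Module.End.mul_apply, ← Module.End.mul_apply, hcomm]
  rw [rho_mul, rho_mul]
  exact congrArg Subtype.val key

/-- A non-abelian normal subgroup of a faithful linear group transitive on the non-zero vectors is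
irreducible. -/
theorem irr_of_nonabelian {ρ : G →* (V ≃ₗ[ZMod p] V)} (hinj : Function.Injective ρ)
    (ht : IsTrans ρ) (N : Subgroup G) [N.Normal] (hN : ¬ ∀ a ∈ N, ∀ b ∈ N, a * b = b * a)
    (W : Submodule (ZMod p) V) (hW : Inv ρ N W) : W = ⊥ ∨ W = ⊤ := by
  by_contra hcon
  push Not at hcon
  obtain ⟨hW0, hWtop⟩ := hcon
  obtain ⟨W₁, hle, h1⟩ := exists_minInv ρ N W hW0 hW
  have hW₁top : W₁ ≠ ⊤ := by
    intro e
    apply hWtop
    rw [eq_top_iff, ← e]
    exact hle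
  obtain ⟨a, ha, ha0⟩ := Submodule.exists_mem_ne_zero_of_ne_bot h1.1
  apply hN
  intro n hn m hm
  apply hinj
  apply LinearEquiv.ext
  intro v
  by_cases hv : v = 0
  · rw [hv, map_zero, map_zero]
  · obtain ⟨g, hg⟩ := ht a v ha0 hv
    have h2 := h1.map g
    have h2top : W₁.map (ρ g : V →ₗ[ZMod p] V) ≠ ⊤ :=
      fun e => hW₁top (eq_top_of_map_eq_top ρ g W₁ e)
    exact comm_on_min ht N h2 h2top ⟨a, ha, hg⟩ hv hn hm

/-- The stabiliser in `A` of a vector. -/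
def stab (ρ : G →* (V ≃ₗ[ZMod p] V)) (A : Subgroup G) (u : V) : Subgroup G where
  carrier := {b | b ∈ A ∧ ρ b u = u}
  mul_mem' := by
    rintro b c ⟨hb, hbu⟩ ⟨hc, hcu⟩
    exact ⟨A.mul_mem hb hc, by rw [rho_mul, hcu, hbu]⟩
  one_mem' := ⟨A.one_mem, rho_one ρ u⟩
  inv_mem' := by
    rintro b ⟨hb, hbu⟩
    refine ⟨A.inv_mem hb, ?_⟩
    have := rho_inv_apply ρ b u
    rw [hbu] at this
    exact this

theorem mem_stab (ρ : G →* (V ≃ₗ[ZMod p] V)) (A : Subgroup G) (u : V) (b : G) :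
    b ∈ stab ρ A u ↔ b ∈ A ∧ ρ b u = u := Iff.rfl

/-- Stabilisers of translated vectors have the same order. -/
theorem card_stab_map [Finite G] (ρ : G →* (V ≃ₗ[ZMod p] V)) (A : Subgroup G) [hA : A.Normal]
    (u : V) (g : G) : Nat.card (stab ρ A (ρ g u)) = Nat.card (stab ρ A u) := by
  have h : stab ρ A (ρ g u) = (stab ρ A u).map (MulAut.conj g).toMonoidHom := by
    ext b
    rw [Subgroup.mem_map]
    constructor
    · rintro ⟨hb, hbu⟩
      refine ⟨g⁻¹ * b * g, ⟨?_, ?_⟩, ?_⟩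
      · have := hA.conj_mem b hb g⁻¹
        rwa [inv_inv] at this
      · rw [rho_mul, rho_mul, hbu, rho_inv_apply]
      · show g * (g⁻¹ * b * g) * g⁻¹ = b
        group
    · rintro ⟨c, ⟨hc, hcu⟩, rfl⟩
      refine ⟨hA.conj_mem c hc g, ?_⟩
      show ρ (g * c * g⁻¹) (ρ g u) = ρ g u
      rw [rho_mul, rho_mul, rho_inv_apply, hcu]
  rw [h]
  exact (Nat.card_congr (Subgroup.equivMapOfInjective _ _
    (MulAut.conj g).injective).toEquiv).symm

/-- An abelian normal subgroup of a faithful linear group transitive on the non-zero vectors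
acts fixed-point-freely. -/
theorem abelian_normal_fpf [Finite G] [Nontrivial V] {ρ : G →* (V ≃ₗ[ZMod p] V)}
    (hinj : Function.Injective ρ) (ht : IsTrans ρ) (A : Subgroup G) [hA : A.Normal]
    (hAc : ∀ a ∈ A, ∀ b ∈ A, a * b = b * a) :
    ∀ a ∈ A, a ≠ 1 → ∀ v : V, ρ a v = v → v = 0 := by
  classical
  intro a ha ha1 v hv
  by_contra hv0
  have htop : Inv ρ A ⊤ := fun n _ v _ => Submodule.mem_top
  obtain ⟨W, -, hW⟩ := exists_minInv ρ A ⊤ top_ne_bot htop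
  obtain ⟨w₀, hw₀W, hw₀0⟩ := Submodule.exists_mem_ne_zero_of_ne_bot hW.1
  -- an element of `A` fixing a non-zero vector of a minimal subspace fixes it pointwise
  have k1 : ∀ W' : Submodule (ZMod p) V, MinInv ρ A W' → ∀ u ∈ W', u ≠ 0 → ∀ b ∈ A,
      ρ b u = u → ∀ w ∈ W', ρ b w = w := by
    intro W' hW' u hu hu0 b hb hbu w hw
    have hinv : Inv ρ A (W' ⊓ LinearMap.eqLocus (ρ b : V →ₗ[ZMod p] V) LinearMap.id) := by
      rintro c hc x ⟨hx1, hx2⟩
      refine ⟨hW'.2.1 c hc x hx1, ?_⟩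
      have hx2' : ρ b x = x := hx2
      show ρ b (ρ c x) = ρ c x
      rw [← rho_mul, hAc b hb c hc, rho_mul, hx2']
    rcases hW'.2.2 _ inf_le_left hinv with h | h
    · exfalso
      have : u ∈ W' ⊓ LinearMap.eqLocus (ρ b : V →ₗ[ZMod p] V) LinearMap.id :=
        ⟨hu, hbu⟩
      rw [h] at this
      exact hu0 ((Submodule.mem_bot _).mp this)
    · have : w ∈ W' ⊓ LinearMap.eqLocus (ρ b : V →ₗ[ZMod p] V) LinearMap.id := by
        rw [h]; exact hw
      exact this.2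
  have k2 : ∀ u : V, u ≠ 0 → Nat.card (stab ρ A u) = Nat.card (stab ρ A w₀) := by
    intro u hu
    obtain ⟨g, hg⟩ := ht w₀ u hw₀0 hu
    rw [← hg]
    exact card_stab_map ρ A w₀ g
  have k4 : ∀ u : V, u ≠ 0 → stab ρ A u = stab ρ A w₀ := by
    intro u hu
    obtain ⟨g, hg⟩ := ht w₀ u hw₀0 hu
    have hW' := hW.map g
    have huW' : u ∈ W.map (ρ g : V →ₗ[ZMod p] V) := ⟨w₀, hw₀W, hg⟩
    rcases hW.eq_or_disjoint hW' with e | e
    · -- same subspace
      have huW : u ∈ W := by rw [e]; exact huW'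
      ext b
      constructor
      · rintro ⟨hb, hbu⟩
        exact ⟨hb, k1 W hW u huW hu b hb hbu w₀ hw₀W⟩
      · rintro ⟨hb, hbu⟩
        exact ⟨hb, k1 W hW w₀ hw₀W hw₀0 b hb hbu u huW⟩
    · -- disjoint subspaces
      have hsum : w₀ + u ≠ 0 := by
        intro h0
        have h1 : w₀ = -u := eq_neg_of_add_eq_zero_left h0
        have h2 : w₀ ∈ W ⊓ W.map (ρ g : V →ₗ[ZMod p] V) :=
          ⟨hw₀W, by rw [h1]; exact Submodule.neg_mem _ huW'⟩
        rw [e] at h2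
        exact hw₀0 ((Submodule.mem_bot _).mp h2)
      have hle : stab ρ A (w₀ + u) ≤ stab ρ A w₀ ⊓ stab ρ A u := by
        rintro b ⟨hb, hbu⟩
        rw [map_add] at hbu
        have h0 : ρ b w₀ - w₀ + (ρ b u - u) = 0 := by
          have : ρ b w₀ - w₀ + (ρ b u - u) = (ρ b w₀ + ρ b u) - (w₀ + u) := by abel
          rw [this, hbu, sub_self]
        have h1 : ρ b w₀ - w₀ = -(ρ b u - u) := eq_neg_of_add_eq_zero_left h0
        have h2 : ρ b w₀ - w₀ ∈ W ⊓ W.map (ρ g : V →ₗ[ZMod p] V) := by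
          refine ⟨W.sub_mem (hW.2.1 b hb w₀ hw₀W) hw₀W, ?_⟩
          rw [h1]
          exact Submodule.neg_mem _ (Submodule.sub_mem _ (hW'.2.1 b hb u huW') huW')
        rw [e, Submodule.mem_bot] at h2
        have h3 : ρ b u - u = 0 := by
          rw [h2] at h1
          exact neg_eq_zero.mp h1.symm
        exact ⟨⟨hb, sub_eq_zero.mp h2⟩, ⟨hb, sub_eq_zero.mp h3⟩⟩
      have e1 : stab ρ A (w₀ + u) = stab ρ A w₀ :=
        Subgroup.eq_of_le_of_card_ge (hle.trans inf_le_left) (by rw [k2 _ hsum])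
      have e2 : stab ρ A (w₀ + u) = stab ρ A u :=
        Subgroup.eq_of_le_of_card_ge (hle.trans inf_le_right) (by rw [k2 _ hsum, k2 u hu])
      rw [← e2, e1]
  apply ha1
  apply hinj
  apply LinearEquiv.ext
  intro u
  rw [map_one]
  show ρ a u = u
  by_cases hu : u = 0
  · rw [hu, map_zero]
  · have h1 : a ∈ stab ρ A v := ⟨ha, hv⟩
    rw [k4 v hv0, ← k4 u hu] at h1
    exact h1.2

end Cfsg.Agent.Lib.Helper12.HupI
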