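import Mathlib

/-!
# Generic tools for Huppert's theorem on regular solvable linear groups (helper12)

* `field_transport`: a semilinear description over a finite field in any universe can be moved
  to a finite field in `Type`.
* `index_two_comap`, `two_group_index_two`, `index_two_of_two_quotient`,
  `cyclic_sylow_index_two`, `index_two_of_comm_image`: sources of normal subgroups of index two.
-/

set_option autoImplicit false

namespace Cfsg.Agent.Lib.Helper12.HupT

open Subgroup

/-- Move a semilinear description of a family of maps to a finite field living in `Type`. -/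
theorem field_transport {V : Type*} [AddCommGroup V] {G : Type*} (act : G → V → V)
    (R : Type*) [Field R] [Fintype R] (φ : V ≃+ R)
    (h : ∀ g, ∃ (a : R) (σ : R ≃+* R), ∀ v, φ (act g v) = a * σ (φ v)) :
    ∃ (F : Type) (_ : Field F) (_ : Fintype F) (e : V ≃+ F),
      ∀ g, ∃ (a : F) (σ : F ≃+* F), ∀ v, e (act g v) = a * σ (e v) := by
  classical
  obtain ⟨p, _, n, hp, hcard⟩ := FiniteField.card' R
  haveI : Fact p.Prime := ⟨hp⟩
  letI : Fintype (GaloisField p n) := Fintype.ofFinite _
  have hc : Fintype.card R = Fintype.card (GaloisField p n) := by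
    rw [hcard, ← Nat.card_eq_fintype_card, GaloisField.card p n n.ne_zero]
  let ψ : R ≃+* GaloisField p n := FiniteField.ringEquivOfCardEq hc
  refine ⟨GaloisField p n, inferInstance, inferInstance, φ.trans ψ.toAddEquiv, fun g => ?_⟩
  obtain ⟨a, σ, ha⟩ := h g
  refine ⟨ψ a, ψ.symm.trans (σ.trans ψ), fun v => ?_⟩
  simp [ha]

/-- Pull back a subgroup of index two along a surjection. -/
theorem index_two_comap {G K : Type*} [Group G] [Group K] (f : G →* K)
    (hf : Function.Surjective f) (N : Subgroup K) (hN : N.index = 2) :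
    ∃ N' : Subgroup G, N'.Normal ∧ N'.index = 2 := by
  haveI := Subgroup.normal_of_index_eq_two hN
  exact ⟨N.comap f, inferInstance, by rw [Subgroup.index_comap_of_surjective N hf]; exact hN⟩

/-- A non-trivial finite 2-group has a subgroup of index two. -/
theorem two_group_index_two {K : Type*} [Group K] [Finite K] {n : ℕ}
    (hK : Nat.card K = 2 ^ (n + 1)) : ∃ N : Subgroup K, N.index = 2 := by
  haveI : Fact (Nat.Prime 2) := ⟨Nat.prime_two⟩
  obtain ⟨N, hN⟩ := Sylow.exists_subgroup_card_pow_prime 2
    (show 2 ^ n ∣ Nat.card K from by rw [hK]; exact pow_dvd_pow 2 (Nat.le_succ n))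
  refine ⟨N, ?_⟩
  have h := N.card_mul_index
  rw [hN, hK, pow_succ] at h
  exact Nat.eq_of_mul_eq_mul_left (by positivity) h

/-- A surjection onto a non-trivial finite 2-group gives a normal subgroup of index two. -/
theorem index_two_of_two_quotient {G K : Type*} [Group G] [Group K] [Finite K] (f : G →* K)
    (hf : Function.Surjective f) {n : ℕ} (hK : Nat.card K = 2 ^ (n + 1)) :
    ∃ N : Subgroup G, N.Normal ∧ N.index = 2 := by
  obtain ⟨N, hN⟩ := two_group_index_two hK
  exact index_two_comap f hf N hN

/-- A finite group of even order with a cyclic Sylow 2-subgroup has a normal subgroup of index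
two. -/
theorem cyclic_sylow_index_two {G : Type*} [Group G] [Finite G] (h2 : 2 ∣ Nat.card G)
    (P : Sylow 2 G) (hP : IsCyclic P) : ∃ N : Subgroup G, N.Normal ∧ N.index = 2 := by
  haveI : Fact (Nat.Prime 2) := ⟨Nat.prime_two⟩
  have hmin : (Nat.card G).minFac = 2 := (Nat.minFac_eq_two_iff _).mpr h2
  have hc := hP.isComplement' hmin
  obtain ⟨K, hK⟩ : ∃ K : Subgroup G,
      K = (MonoidHom.transferSylow P (hP.normalizer_le_centralizer hmin)).ker := ⟨_, rfl⟩
  rw [← hK] at hc
  haveI : K.Normal := by rw [hK]; infer_instance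
  have hidx : K.index = Nat.card P := hc.symm.index_eq_card
  obtain ⟨k, hk⟩ := P.2.exists_card_eq
  have hk0 : k ≠ 0 := by
    rintro rfl
    rw [pow_zero] at hk
    exact P.ne_bot_of_dvd_card h2 ((Subgroup.eq_bot_iff_card _).mpr hk)
  obtain ⟨m, rfl⟩ : ∃ m, k = m + 1 := ⟨k - 1, by omega⟩
  have hq : Nat.card (G ⧸ K) = 2 ^ (m + 1) := by
    rw [← Subgroup.index_eq_card, hidx]; exact hk
  exact index_two_of_two_quotient (QuotientGroup.mk' K) (QuotientGroup.mk'_surjective K) hq

/-- A homomorphism into a commutative group with image of even order gives a normal subgroup of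
index two. -/
theorem index_two_of_comm_image {G K : Type*} [Group G] [Finite G] [CommGroup K] (f : G →* K)
    (h2 : 2 ∣ Nat.card f.range) : ∃ N : Subgroup G, N.Normal ∧ N.index = 2 := by
  haveI : Fact (Nat.Prime 2) := ⟨Nat.prime_two⟩
  haveI : Finite f.range := Finite.of_surjective f.rangeRestrict f.rangeRestrict_surjective
  obtain ⟨a, m, hm, ham⟩ := Nat.exists_eq_two_pow_mul_odd (n := Nat.card f.range)
    Nat.card_pos.ne'
  let g : G →* f.range := (powMonoidHom m : f.range →* f.range).comp f.rangeRestrict
  haveI : Finite g.range := Finite.of_surjective g.rangeRestrict g.rangeRestrict_surjective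
  have hpg : IsPGroup 2 g.range := by
    rintro ⟨t, ht⟩
    obtain ⟨x, rfl⟩ := ht
    refine ⟨a, Subtype.ext ?_⟩
    show (g x) ^ 2 ^ a = 1
    show ((f.rangeRestrict x) ^ m) ^ 2 ^ a = 1
    rw [← pow_mul, mul_comm, ← ham, pow_card_eq_one']
  obtain ⟨y, hy⟩ := exists_prime_orderOf_dvd_card' (G := f.range) 2 h2
  obtain ⟨x, rfl⟩ := f.rangeRestrict_surjective y
  have hgx : g x ≠ 1 := by
    show (f.rangeRestrict x) ^ m ≠ 1
    intro h
    have h1 := orderOf_dvd_of_pow_eq_one h
    rw [hy] at h1
    exact (Nat.not_even_iff_odd.mpr hm) (even_iff_two_dvd.mpr h1)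
  obtain ⟨k, hk⟩ := hpg.exists_card_eq
  have hk0 : k ≠ 0 := by
    rintro rfl
    rw [pow_zero] at hk
    have hsub := (Nat.card_eq_one_iff_unique.mp hk).1
    have h1 : (⟨g x, x, rfl⟩ : g.range) = 1 := Subsingleton.elim _ _
    exact hgx (congrArg Subtype.val h1)
  obtain ⟨j, rfl⟩ : ∃ j, k = j + 1 := ⟨k - 1, by omega⟩
  exact index_two_of_two_quotient g.rangeRestrict g.rangeRestrict_surjective hk

end Cfsg.Agent.Lib.Helper12.HupT
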