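import Mathlib
import Cfsg.Agent.Lib.Helper12.SNStmt

/-!
S4073, piece BFREE: an element of odd prime order normalizing a 2-subgroup acts freely on its
nonidentity elements when centralizers of involutions have exponent two (helper12).
-/

set_option autoImplicit false

universe u

namespace Cfsg.Agent.Lib.Helper12.SNBFREE

open Cfsg.Agent.Lib.Helper12.SNDef Cfsg.Agent.Lib.Helper12.SNStmt

theorem main : BFree.{u} := by
  intro L _ _ hexp e hep heo Q hQ he
  classical
  haveI : Fact (orderOf e).Prime := ⟨hep⟩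
  haveI : Fact (Nat.Prime 2) := ⟨Nat.prime_two⟩
  have hzN : ∀ z : Subgroup.zpowers e, (z : L) ∈ Subgroup.normalizer (Q : Set L) := by
    intro z
    exact (Subgroup.zpowers_le.mpr he) z.2
  letI act : MulAction (Subgroup.zpowers e) Q :=
    { smul := fun z y => ⟨(z : L) * (y : L) * (z : L)⁻¹,
        (Subgroup.mem_normalizer_iff.mp (hzN z) (y : L)).mp y.2⟩
      one_smul := by
        intro y
        apply Subtype.ext
        show ((1 : Subgroup.zpowers e) : L) * (y : L) * ((1 : Subgroup.zpowers e) : L)⁻¹ = y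
        simp
      mul_smul := by
        intro a b y
        apply Subtype.ext
        show ((a * b : Subgroup.zpowers e) : L) * (y : L) * ((a * b : Subgroup.zpowers e) : L)⁻¹
          = (a : L) * ((b : L) * (y : L) * (b : L)⁻¹) * (a : L)⁻¹
        simp [mul_assoc] }
  have hsmul : ∀ (z : Subgroup.zpowers e) (y : Q), ((z • y : Q) : L) = (z : L) * (y : L) * (z : L)⁻¹ :=
    fun z y => rfl
  have hE : IsPGroup (orderOf e) (Subgroup.zpowers e) := by
    apply IsPGroup.of_card (n := 1)
    rw [pow_one, Nat.card_zpowers]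
  have hmod := hE.card_modEq_card_fixedPoints Q
  have hfix : ∀ y : Q, y ∈ MulAction.fixedPoints (Subgroup.zpowers e) Q → y = 1 := by
    intro y hy
    by_contra hy1
    have hcomm : Commute (y : L) e := by
      have h1 := hy ⟨e, Subgroup.mem_zpowers e⟩
      have h2 : e * (y : L) * e⁻¹ = (y : L) := by
        have h3 := congrArg Subtype.val h1
        rw [hsmul] at h3
        exact h3
      have h4 : e * (y : L) = (y : L) * e := by
        calc e * (y : L) = e * (y : L) * e⁻¹ * e := by group
          _ = (y : L) * e := by rw [h2]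
      exact h4.symm
    obtain ⟨k, hk⟩ := (IsPGroup.iff_orderOf.mp hQ) y
    have hyL1 : (y : L) ≠ 1 := fun h => hy1 (Subtype.ext h)
    have hoL : orderOf (y : L) = 2 ^ k := by rw [Subgroup.orderOf_coe]; exact hk
    have hk1 : 1 ≤ k := by
      by_contra h
      have h0 : k = 0 := by omega
      rw [h0, pow_zero, orderOf_eq_one_iff] at hoL
      exact hyL1 hoL
    have ht1 : (y : L) ^ (2 ^ (k - 1)) ≠ 1 := by
      apply pow_ne_one_of_lt_orderOf (by positivity)
      rw [hoL]
      exact Nat.pow_lt_pow_right (by norm_num) (by omega)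
    have ht2 : ((y : L) ^ (2 ^ (k - 1))) ^ 2 = 1 := by
      rw [← pow_mul, ← pow_succ, Nat.sub_add_cancel hk1, ← hoL]
      exact pow_orderOf_eq_one _
    have he2 : e ^ 2 = 1 := hexp _ e ht1 ht2 (hcomm.pow_left _)
    have hdvd : orderOf e ∣ 2 := orderOf_dvd_of_pow_eq_one he2
    have h2 : orderOf e = 2 := (Nat.prime_dvd_prime_iff_eq hep Nat.prime_two).mp hdvd
    rw [h2] at heo
    exact (by decide : ¬ Odd 2) heo
  have hcardfix : Nat.card (MulAction.fixedPoints (Subgroup.zpowers e) Q) = 1 := by
    rw [Nat.card_eq_one_iff_unique]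
    refine ⟨⟨fun a b => ?_⟩, ⟨⟨1, ?_⟩⟩⟩
    · apply Subtype.ext
      rw [hfix a.1 a.2, hfix b.1 b.2]
    · intro z
      apply Subtype.ext
      rw [hsmul]
      simp
  rw [hcardfix] at hmod
  have hpos : 1 ≤ Nat.card Q := Nat.card_pos
  exact (Nat.modEq_iff_dvd' hpos).mp hmod.symm

end Cfsg.Agent.Lib.Helper12.SNBFREE
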