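import Mathlib
import Cfsg.Agent.Lib.Helper12.SNStmt

/-!
S4073, piece BSGLUE: subgroups of a group of order `2 ^ n * (2 ^ n - 1)` whose Sylow
2-subgroup is not normal (helper12).
-/

set_option autoImplicit false

universe u

namespace Cfsg.Agent.Lib.Helper12.SNBSGLUE

open Cfsg.Agent.Lib.Helper12.SNDef Cfsg.Agent.Lib.Helper12.SNStmt

theorem main : BSGlue.{u} := by
  intro h2ab hcard hinv hbsx L _ _ hexp n hprime M hM H X hHX hXM hn hH Q hQ
  classical
  haveI : Fact (Nat.Prime 2) := ⟨Nat.prime_two⟩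
  have hn1 : 1 ≤ n := by
    by_contra h
    have h0 : n = 0 := by omega
    rw [h0] at hprime
    exact Nat.not_prime_zero hprime
  have h2n : 2 ≤ 2 ^ n := by
    calc 2 = 2 ^ 1 := rfl
      _ ≤ 2 ^ n := Nat.pow_le_pow_right (by norm_num) hn1
  have hrodd : Odd (2 ^ n - 1) := by
    have h1 : Even (2 ^ n) := Nat.even_pow.mpr ⟨even_two, by omega⟩
    exact Nat.Even.sub_odd (by omega) h1 odd_one
  have hr3 : 3 ≤ 2 ^ n - 1 := by
    have h1 := hprime.two_le
    rcases hrodd with ⟨m, hm⟩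
    omega
  have h2 : ∀ T : Subgroup L, IsPGroup 2 T → IsMulCommutative T :=
    fun T hT => (h2ab hexp T hT).2
  have hHM : H ≤ M := hHX.trans hXM
  have hHdvd : Nat.card H ∣ 2 ^ n * (2 ^ n - 1) := by
    rw [← hM]; exact Subgroup.card_dvd_of_le hHM
  obtain ⟨hH2, hHr⟩ := hcard h2 n hprime H hHdvd hH
  have hXdvd : Nat.card X ∣ 2 ^ n * (2 ^ n - 1) := by
    rw [← hM]; exact Subgroup.card_dvd_of_le hXM
  have h2r : 2 * (2 ^ n - 1) ∣ Nat.card H :=
    Nat.Coprime.mul_dvd_of_dvd_of_dvd (Nat.coprime_two_left.mpr hrodd) hH2 hHr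
  have hQLp : IsPGroup 2 ((Q : Subgroup X).map X.subtype) := Q.isPGroup'.map _
  obtain ⟨hQexp, hQLc⟩ := h2ab hexp _ hQLp
  have hQc : IsMulCommutative (Q : Subgroup X) := by
    refine ⟨⟨fun a b => ?_⟩⟩
    have ha : ((a : X) : L) ∈ (Q : Subgroup X).map X.subtype := ⟨a.1, a.2, rfl⟩
    have hb : ((b : X) : L) ∈ (Q : Subgroup X).map X.subtype := ⟨b.1, b.2, rfl⟩
    have h1 := hQLc.is_comm.comm (⟨_, ha⟩ : (Q : Subgroup X).map X.subtype) ⟨_, hb⟩
    have h3 : ((a : X) : L) * ((b : X) : L) = ((b : X) : L) * ((a : X) : L) :=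
      congrArg Subtype.val h1
    apply Subtype.ext
    apply Subtype.ext
    exact h3
  have hidx : (Q : Subgroup X).index = 2 ^ n - 1 := by
    have hmul : Nat.card (Q : Subgroup X) * (Q : Subgroup X).index = Nat.card X :=
      Subgroup.card_mul_index _
    have hnd : ¬ 2 ∣ (Q : Subgroup X).index := Q.not_dvd_index
    have hdvd : (Q : Subgroup X).index ∣ 2 ^ n * (2 ^ n - 1) :=
      (Dvd.intro_left _ hmul).trans hXdvd
    have hcop : Nat.Coprime ((Q : Subgroup X).index) (2 ^ n) :=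
      Nat.Coprime.pow_right n
        (Nat.coprime_comm.mp ((Nat.Prime.coprime_iff_not_dvd Nat.prime_two).mpr hnd))
    have hdr : (Q : Subgroup X).index ∣ 2 ^ n - 1 := hcop.dvd_of_dvd_mul_left hdvd
    rcases (Nat.dvd_prime hprime).mp hdr with h1 | h1
    · exfalso
      apply hQ
      have h4 : (Q : Subgroup X) = ⊤ := Subgroup.index_eq_one.mp h1
      rw [h4]
      infer_instance
    · exact h1
  obtain ⟨K, hKn, hKc⟩ := hbsx Q hQc hQ (by rw [hidx]; exact hprime)
  have hKQ : Nat.card K * Nat.card (Q : Subgroup X) = Nat.card X := hKc.card_mul_card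
  have hKcard : Nat.card K = 2 ^ n - 1 := by
    have h1 := hKc.index_eq_card
    rw [hidx] at h1
    exact h1.symm
  haveI : Fact (2 ^ n - 1).Prime := ⟨hprime⟩
  obtain ⟨e', he'⟩ : ∃ e' : K, e' ≠ 1 := by
    haveI : Nontrivial K := (Finite.one_lt_card_iff_nontrivial).mp (by rw [hKcard]; omega)
    exact exists_ne 1
  have hzp : Subgroup.zpowers e' = ⊤ := zpowers_eq_top_of_prime_card hKcard he'
  have horder : orderOf e' = 2 ^ n - 1 := by
    apply orderOf_eq_prime _ he'
    rw [← hKcard]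
    exact pow_card_eq_one'
  have heo : orderOf (((e' : X) : L)) = 2 ^ n - 1 := by
    rw [Subgroup.orderOf_coe, Subgroup.orderOf_coe]; exact horder
  have he1 : ((e' : X) : L) ≠ 1 := by
    intro h
    rw [h, orderOf_one] at heo
    omega
  have hzpe : (Subgroup.zpowers (((e' : X) : L)) : Subgroup L) = K.map X.subtype := by
    have h1 : Subgroup.zpowers (e' : X) = K := by
      have h3 := MonoidHom.map_zpowers K.subtype e'
      rw [hzp, ← MonoidHom.range_eq_map, Subgroup.range_subtype] at h3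
      exact h3.symm
    have h4 := MonoidHom.map_zpowers X.subtype (e' : X)
    rw [h1] at h4
    exact h4.symm
  have hTe : (Q : Subgroup X).map X.subtype ≤
      Subgroup.normalizer ((Subgroup.zpowers (((e' : X) : L)) : Subgroup L) : Set L) := by
    rintro _ ⟨a, ha, rfl⟩
    rw [hzpe, Subgroup.mem_normalizer_iff]
    intro y
    constructor
    · rintro ⟨k, hk, rfl⟩
      exact ⟨a * k * a⁻¹, hKn.conj_mem k hk a, rfl⟩
    · rintro ⟨k, hk, hky⟩
      refine ⟨a⁻¹ * k * a, ?_, ?_⟩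
      · have h5 := hKn.conj_mem k hk a⁻¹
        rwa [inv_inv] at h5
      · have h6 : ((k : X) : L) = (a : L) * y * (a : L)⁻¹ := hky
        simp [h6, mul_assoc]
  have hQ2 : Nat.card ((Q : Subgroup X).map X.subtype) ≤ 2 :=
    hinv hexp _ he1 (by rw [heo]; exact hrodd) _ hQexp hTe
  rw [Subgroup.card_map_of_injective X.subtype_injective] at hQ2
  have hXle : Nat.card X ≤ 2 * (2 ^ n - 1) := by
    rw [← hKQ, hKcard, mul_comm]
    exact Nat.mul_le_mul_right _ hQ2
  have hHpos : 0 < Nat.card H := Nat.card_pos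
  have hHge : 2 * (2 ^ n - 1) ≤ Nat.card H := Nat.le_of_dvd hHpos h2r
  exact (Subgroup.eq_of_le_of_card_ge hHX (hXle.trans hHge)).symm.le

end Cfsg.Agent.Lib.Helper12.SNBSGLUE
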