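import Mathlib
import Cfsg.Agent.Lib.Helper12.SNStmt
import Cfsg.Agent.S4074

/-!
S4073, piece DIH: subgroups of a dihedral subgroup of odd degree (helper12).
-/

set_option autoImplicit false

universe u

namespace Cfsg.Agent.Lib.Helper12.SNDIH

open Cfsg.Agent.Lib.Helper12.SNDef Cfsg.Agent.Lib.Helper12.SNStmt

theorem main : Dih.{u} := by
  intro L _ k hk hodd M φ H X hHX hXM hn hH
  have hSD : SN (DihedralGroup k) := (Cfsg.Agent.S4074.result k hk).mpr (Or.inr hodd)
  have hSM : SN M := SN.of_mulEquiv φ.symm hSD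
  have hH' : ¬ IsMulCommutative (H.subgroupOf M) := by
    intro hc
    apply hH
    refine ⟨⟨fun a b => ?_⟩⟩
    have haM : (a : L) ∈ M := hXM (hHX a.2)
    have hbM : (b : L) ∈ M := hXM (hHX b.2)
    have ha : (⟨a, haM⟩ : M) ∈ H.subgroupOf M := by rw [Subgroup.mem_subgroupOf]; exact a.2
    have hb : (⟨b, hbM⟩ : M) ∈ H.subgroupOf M := by rw [Subgroup.mem_subgroupOf]; exact b.2
    have h1 := hc.is_comm.comm (⟨_, ha⟩ : H.subgroupOf M) ⟨_, hb⟩
    have h2 : (a : L) * (b : L) = (b : L) * (a : L) :=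
      congrArg (fun z : H.subgroupOf M => ((z : M) : L)) h1
    exact Subtype.ext h2
  have hnorm := hSM _ hH'
  intro x hx
  have hxM : x ∈ M := hXM hx
  have hxN : (⟨x, hxM⟩ : M) ∈
      Subgroup.normalizer ((H.subgroupOf M : Subgroup M) : Set M) := by
    rw [Subgroup.mem_normalizer_iff]
    intro y
    rw [Subgroup.mem_subgroupOf, Subgroup.mem_subgroupOf]
    exact Subgroup.mem_normalizer_iff.mp (hn hx) (y : L)
  rw [hnorm, Subgroup.mem_subgroupOf] at hxN
  exact hxN

end Cfsg.Agent.Lib.Helper12.SNDIH
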