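import Mathlib
import Cfsg.Agent.Lib.Helper12.SNStmt
import Cfsg.Agent.Lib.Helper39.CTFinal

/-!
S4073, piece PRCARD: the order of the normalizer of the centralizer of an involution in a finite
simple nonabelian CT-group (helper12).
-/

set_option autoImplicit false

universe u

namespace Cfsg.Agent.Lib.Helper12.SNPRCARD

open Cfsg.Agent.Lib.Helper12.SNDef Cfsg.Agent.Lib.Helper12.SNStmt
open Cfsg.Agent.Lib.Helper39.CTGroup Cfsg.Agent.Lib.Helper39.CTCount
open Cfsg.Agent.Lib.Helper39.CTFinal

theorem main : PrCard.{u} := by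
  intro G _ _ _ hG hCT t ht1 ht
  classical
  haveI : Fintype G := Fintype.ofFinite G
  haveI : Fact (Nat.Prime 2) := ⟨Nat.prime_two⟩
  have hN := card_normalizer hG hCT ht1 ht
  have hVs : Nat.card (Subgroup.centralizer ({t} : Set G)) = (Vs t).card := by
    apply Nat.subtype_card
    intro u
    rw [mem_Vs]
    constructor
    · intro h; exact h.1
    · intro h; exact ⟨h, sq_eq_one_of_mem_cent hG hCT ht1 ht h⟩
  rw [← hVs] at hN
  refine ⟨hN, ?_, ?_⟩
  · have ho : orderOf (⟨t, self_mem_cent t⟩ : Subgroup.centralizer ({t} : Set G)) = 2 := by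
      rw [Subgroup.orderOf_mk]; exact orderOf_eq_prime ht ht1
    have h1 := orderOf_dvd_natCard (⟨t, self_mem_cent t⟩ : Subgroup.centralizer ({t} : Set G))
    rw [ho] at h1
    exact even_iff_two_dvd.mpr h1
  · obtain ⟨u, huC, hu1, hut, hu2⟩ := exists_third hG hCT ht1 ht
    haveI : Fintype (Subgroup.centralizer ({t} : Set G)) := Fintype.ofFinite _
    have hsub : ({1, ⟨t, self_mem_cent t⟩, ⟨u, huC⟩} :
        Finset (Subgroup.centralizer ({t} : Set G))) ⊆ Finset.univ := Finset.subset_univ _
    have hc3 : ({1, ⟨t, self_mem_cent t⟩, ⟨u, huC⟩} :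
        Finset (Subgroup.centralizer ({t} : Set G))).card = 3 :=
      Finset.card_eq_three.mpr ⟨1, ⟨t, self_mem_cent t⟩, ⟨u, huC⟩,
        fun h => ht1 (congrArg Subtype.val h).symm, fun h => hu1 (congrArg Subtype.val h).symm,
        fun h => hut (congrArg Subtype.val h).symm, rfl⟩
    have hle := Finset.card_le_card hsub
    rw [hc3, Finset.card_univ, ← Nat.card_eq_fintype_card] at hle
    exact hle

end Cfsg.Agent.Lib.Helper12.SNPRCARD
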