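import Mathlib
import Cfsg.Agent.Lib.Helper12.SNStmt
import Cfsg.Agent.S4071
import Cfsg.Agent.S4072

/-!
S4073, piece S2GLUE: in an `SN`-group a maximal pair for the Frobenius criterion has `Q`
commutative and Sylow (helper12).
-/

set_option autoImplicit false

universe u

namespace Cfsg.Agent.Lib.Helper12.SNS2GLUE

open Cfsg.Agent.Lib.Helper12.SNDef Cfsg.Agent.Lib.Helper12.SNStmt

theorem main : S2Glue.{u} := by
  intro hSimple hNilp hQP hQNP hB hMax hD G _ _ hS p _ Q g hQ hg hgc hgo hmax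
  classical
  have hSX : SN (Subgroup.normalizer (Q : Set G)) := hS.subgroup _
  have hQ'n : (Q.subgroupOf (Subgroup.normalizer (Q : Set G))).Normal :=
    Subgroup.normal_in_normalizer
  have hQ'p : IsPGroup p (Q.subgroupOf (Subgroup.normalizer (Q : Set G))) := hQ.comap_subtype
  have hgo' : Nat.Coprime (orderOf (⟨g, hg⟩ : Subgroup.normalizer (Q : Set G))) p := by
    rw [Subgroup.orderOf_mk]; exact hgo
  have hgc' : (⟨g, hg⟩ : Subgroup.normalizer (Q : Set G)) ∉
      Subgroup.centralizer ((Q.subgroupOf (Subgroup.normalizer (Q : Set G)) :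
        Subgroup (Subgroup.normalizer (Q : Set G))) : Set (Subgroup.normalizer (Q : Set G))) := by
    intro h
    apply hgc
    rw [Subgroup.mem_centralizer_iff]
    intro y hy
    have hyN : y ∈ Subgroup.normalizer (Q : Set G) := Subgroup.le_normalizer hy
    have hyQ' : (⟨y, hyN⟩ : Subgroup.normalizer (Q : Set G)) ∈
        Q.subgroupOf (Subgroup.normalizer (Q : Set G)) := by
      rw [Subgroup.mem_subgroupOf]; exact hy
    have h1 := Subgroup.mem_centralizer_iff.mp h ⟨y, hyN⟩ hyQ'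
    exact congrArg Subtype.val h1
  have key : ∃ (x : Subgroup.normalizer (Q : Set G))
      (A : Subgroup (Subgroup.normalizer (Q : Set G))) (q : ℕ),
      Split (Subgroup.normalizer (Q : Set G)) x A q ∧ q ≠ p := by
    rcases Cfsg.Agent.S4072.result hSX with hsolv | hsimp
    · by_cases hnil : Group.IsNilpotent (Subgroup.normalizer (Q : Set G))
      · exact absurd (hNilp hSX p _ hQ'p _ hgo') hgc'
      · obtain ⟨x, A, q, hsp⟩ := (Cfsg.Agent.S4071.result hnil).mp hSX
        refine ⟨x, A, q, hsp, ?_⟩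
        intro hqp
        subst hqp
        exact hgc' (hQP x A q hsp _ hQ'n hQ'p _ hgo')
    · exact absurd (hSimple p _ hQ'n hQ'p _ hgo') hgc'
  obtain ⟨x, A, q, hsp, hqp⟩ := key
  have hsp' := hsp
  obtain ⟨hq, hAn, hAc, ⟨k, hk⟩, hqA, hcompl, hxq, hfpf⟩ := hsp'
  have hp : p.Prime := Fact.out
  have hpel : ∀ u : Subgroup.normalizer (Q : Set G), (∃ k : ℕ, u ^ (p ^ k) = 1) → u ∈ A :=
    fun u hu => hQNP x A q hsp p hp (Ne.symm hqp) u hu
  obtain ⟨B, hBn, hBA, hBp, hBel⟩ := hB A hAn hAc p hp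
  have hpelB : ∀ u : Subgroup.normalizer (Q : Set G), (∃ k : ℕ, u ^ (p ^ k) = 1) → u ∈ B :=
    fun u hu => hBel u (hpel u hu) hu
  have hQ'B : Q.subgroupOf (Subgroup.normalizer (Q : Set G)) ≤ B := by
    intro y hy
    apply hpelB
    obtain ⟨k, hk⟩ := hQ'p ⟨y, hy⟩
    exact ⟨k, congrArg Subtype.val hk⟩
  have hQ'ne : ∃ y ∈ Q.subgroupOf (Subgroup.normalizer (Q : Set G)), y ≠ 1 := by
    by_contra hcon
    push Not at hcon
    apply hgc'
    rw [Subgroup.mem_centralizer_iff]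
    intro y hy
    rw [hcon y hy]; simp
  obtain ⟨b, hbQ, hb1⟩ := hQ'ne
  have hxo : Nat.Coprime (orderOf x) p := by
    rw [hk]
    exact Nat.Coprime.pow_left k ((Nat.coprime_primes hq hp).mpr hqp)
  have hBQ := hMax p Q hmax B hBn hBp hQ'B x hxo
    ⟨b, hQ'B hbQ, hfpf b (hBA (hQ'B hbQ)) hb1⟩
  have hBeq : B = Q.subgroupOf (Subgroup.normalizer (Q : Set G)) := le_antisymm hBQ hQ'B
  constructor
  · refine ⟨⟨fun a b => ?_⟩⟩
    have haN : (a : G) ∈ Subgroup.normalizer (Q : Set G) := Subgroup.le_normalizer a.2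
    have hbN : (b : G) ∈ Subgroup.normalizer (Q : Set G) := Subgroup.le_normalizer b.2
    have haA : (⟨a, haN⟩ : Subgroup.normalizer (Q : Set G)) ∈ A :=
      hBA (hQ'B (by rw [Subgroup.mem_subgroupOf]; exact a.2))
    have hbA : (⟨b, hbN⟩ : Subgroup.normalizer (Q : Set G)) ∈ A :=
      hBA (hQ'B (by rw [Subgroup.mem_subgroupOf]; exact b.2))
    have h1 := hAc.is_comm.comm (⟨_, haA⟩ : A) ⟨_, hbA⟩
    have h2 : (a : G) * (b : G) = (b : G) * (a : G) :=
      congrArg (fun z : A => ((z : Subgroup.normalizer (Q : Set G)) : G)) h1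
    exact Subtype.ext h2
  · intro P hQP
    apply hD p Q _ P hQP
    intro u hu hpu
    obtain ⟨k, hk⟩ := hpu
    have h1 : (⟨u, hu⟩ : Subgroup.normalizer (Q : Set G)) ∈ B := hpelB _ ⟨k, Subtype.ext hk⟩
    rw [hBeq, Subgroup.mem_subgroupOf] at h1
    exact h1

end Cfsg.Agent.Lib.Helper12.SNS2GLUE
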